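import Cfsg.Agent.H103.Tor.Reduce

/-!
# S3235: assembly (helper103)

`hcl` is `Cfsg.Agent.S0000.result`.
-/

set_option autoImplicit false

namespace Cfsg.Agent.H103.Tor

open Subgroup Cfsg

universe w

/-- the hypothesis of S3235 gives `Pr` -/
theorem Pr.of_hpair {G : Type*} [Group G] {p : ℕ} (hp : p.Prime) {A₀ : Subgroup G} (hA₀ : Nat.card ↥A₀ = p)
    (hpair : ∀ g h : G, A₀.map (MulAut.conj g).toMonoidHom ≠ A₀.map (MulAut.conj h).toMonoidHom →
      Nonempty (↥(A₀.map (MulAut.conj g).toMonoidHom ⊔ A₀.map (MulAut.conj h).toMonoidHom) ≃*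
        (Multiplicative (ZMod p) × Multiplicative (ZMod p))) ∨
      ∃ (K : Type) (_ : Field K) (_ : Fintype K) (m : ℕ), 1 ≤ m ∧ Fintype.card K = p ^ m ∧
        (Nonempty (↥(A₀.map (MulAut.conj g).toMonoidHom ⊔ A₀.map (MulAut.conj h).toMonoidHom) ≃*
            Matrix.ProjectiveSpecialLinearGroup (Fin 2) K) ∨
          Nonempty (↥(A₀.map (MulAut.conj g).toMonoidHom ⊔ A₀.map (MulAut.conj h).toMonoidHom) ≃*
            Matrix.SpecialLinearGroup (Fin 2) K))) : Pr p A₀ := by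
  refine ⟨hA₀, fun g => ?_⟩
  have h1 : A₀.map (MulAut.conj (1 : G)).toMonoidHom = A₀ := cj_one A₀
  by_cases hg : A₀ = cj g A₀
  · left
    rw [← hg]
    exact Cm.self hp hA₀
  · have h2 := hpair 1 g (by rw [h1]; exact hg)
    rw [h1] at h2
    rcases h2 with h2 | h2
    · left
      obtain ⟨e⟩ := h2
      intro a ha b hb
      have h3 : (⟨a, mem_sup_left ha⟩ : ↥(A₀ ⊔ cj g A₀)) * ⟨b, mem_sup_right hb⟩ =
          ⟨b, mem_sup_right hb⟩ * ⟨a, mem_sup_left ha⟩ := by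
        apply e.injective
        rw [map_mul, map_mul, mul_comm]
      exact congrArg Subtype.val h3
    · right
      exact h2

theorem main {G : Type w} [Group G] [Finite G]
    (p : ℕ) (hp : p.Prime) (hp5 : 5 ≤ p) (hR : Rows.{w} p)
    (hcl : ∀ (K : Type w) [Group K] [Finite K] [IsSimpleGroup K], IsKnownSimple' K)
    (hS : ∀ M : Subgroup G, M.Normal → Group.IsSolvable ↥M → M = ⊥)
    (A₀ : Subgroup G) (hA₀ : Nat.card ↥A₀ = p)
    (hgen : (⨆ g : G, A₀.map (MulAut.conj g).toMonoidHom) = ⊤)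
    (hpair : ∀ g h : G, A₀.map (MulAut.conj g).toMonoidHom ≠ A₀.map (MulAut.conj h).toMonoidHom →
      Nonempty (↥(A₀.map (MulAut.conj g).toMonoidHom ⊔ A₀.map (MulAut.conj h).toMonoidHom) ≃*
        (Multiplicative (ZMod p) × Multiplicative (ZMod p))) ∨
      ∃ (K : Type) (_ : Field K) (_ : Fintype K) (m : ℕ), 1 ≤ m ∧ Fintype.card K = p ^ m ∧
        (Nonempty (↥(A₀.map (MulAut.conj g).toMonoidHom ⊔ A₀.map (MulAut.conj h).toMonoidHom) ≃*
            Matrix.ProjectiveSpecialLinearGroup (Fin 2) K) ∨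
          Nonempty (↥(A₀.map (MulAut.conj g).toMonoidHom ⊔ A₀.map (MulAut.conj h).toMonoidHom) ≃*
            Matrix.SpecialLinearGroup (Fin 2) K))) : Target p G := by
  have h := Pr.of_hpair hp hA₀ hpair
  obtain ⟨hs, hna⟩ := reduction hp hp5 hS h hgen
  exact hR.main hp G hna (hcl G) A₀ h

end Cfsg.Agent.H103.Tor
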