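import Cfsg.Agent.H103.Tor.Basic

/-!
# S3235: more counting (helper103)

* `Pair.line` : if `A` is the only subgroup of order `p` of `C(A)` then `|K| = p` in a noncommuting pair;
* `Line.swap` : `w` with `w A w⁻¹ = B`, `w⁴ = 1`, `w²` centralises `A ⊔ B`;
* `Line.five` : `p = 5`, `C(A)` without involutions: `z² = 1`, `z³ = 1` or `z⁵ = 1` for `z ∈ A ⊔ B`;
* `Pr.count_sq` : (F4) for an arbitrary multiplier `s²`;
* `Pr.count_inv` : (F5) `|G| ≤ |N(A)| #{w | w² = 1}`.
-/

set_option autoImplicit false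

namespace Cfsg.Agent.H103.Tor

open Subgroup Matrix
open Cfsg.Agent.H333.SLTwoLine (Ker1 tw u l d tw_range tw_apply exists_gen exists_lift exists_phi u_mul u_inv u_pow
  l_pow l_inv l_mul d_u d_l conj_u_of_col conj_l_of_col Line)

variable {G : Type*} [Group G]

theorem Pair.line {p : ℕ} (hp : p.Prime) (hp5 : 5 ≤ p) {A B : Subgroup G} (h : Pair p A B)
    (hO : ∀ x ∈ centralizer (A : Set G), x ^ p = 1 → x ∈ A) : Line p A B := by
  classical
  obtain ⟨K, _, _, _, m, φ, x, y, hm, hK, hφ, hX, hx, hy, hA, hB⟩ := h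
  have hpf := Fact.mk hp
  have h20 : (2 : K) ≠ 0 := two_ne hp hp5
  -- every element of `K` is a multiple of `x`
  have h1 : ∀ z : K, ∃ n : ℕ, z = n * x := by
    intro z
    have h2 : φ (u z) ∈ centralizer (A : Set G) := by
      rw [mem_centralizer_iff]
      intro a ha
      rw [hA] at ha
      obtain ⟨i, rfl⟩ := ha
      have h3 : Commute (φ (u x)) (φ (u z)) := by
        show _ * _ = _ * _
        rw [← map_mul, ← map_mul, u_mul, u_mul, add_comm]
      exact h3.zpow_left i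
    have h3 : φ (u z) ^ p = 1 := by
      rw [← map_pow, u_pow, CharP.cast_eq_zero, zero_mul, Cfsg.Agent.H333.SLTwoLine.u_zero, map_one]
    have h4 := hO _ h2 h3
    rw [hA] at h4
    have hfo : IsOfFinOrder (φ (u x)) := by
      rw [isOfFinOrder_iff_pow_eq_one]
      refine ⟨p, hp.pos, ?_⟩
      rw [← map_pow, u_pow, CharP.cast_eq_zero, zero_mul, Cfsg.Agent.H333.SLTwoLine.u_zero, map_one]
    rw [← hfo.mem_powers_iff_mem_zpowers, Submonoid.mem_powers_iff] at h4
    obtain ⟨n, hn⟩ := h4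
    refine ⟨n, ?_⟩
    rw [← map_pow, u_pow] at hn
    exact (hφ.u_inj h20 hn).symm
  have hcard : Fintype.card K = p := by
    apply le_antisymm
    · -- `K` is the image of `ZMod p`
      have h2 : Function.Surjective (fun n : ZMod p => (ZMod.castHom (dvd_refl p) K n) * x) := by
        intro z
        obtain ⟨n, hn⟩ := h1 z
        exact ⟨n, by simp [hn]⟩
      have h3 := Fintype.card_le_of_surjective _ h2
      rwa [ZMod.card] at h3
    · rw [hK]
      calc p = p ^ 1 := (pow_one p).symm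
        _ ≤ p ^ m := Nat.pow_le_pow_right hp.pos hm
  have hcs := Cfsg.Agent.H333.SLTwoLine.cast_surj hp hcard
  refine ⟨K, inferInstance, inferInstance, φ, hcard, hφ, hX, ?_, ?_⟩
  · intro g
    rw [hA]
    constructor
    · rintro ⟨i, rfl⟩
      obtain ⟨n, hn | hn⟩ := i.eq_nat_or_neg
      · exact ⟨n * x, by simp only [hn, zpow_natCast]; rw [← map_pow, u_pow]⟩
      · exact ⟨-(n * x), by simp only [hn, _root_.zpow_neg, zpow_natCast]; rw [← map_pow, u_pow, ← map_inv, u_inv]⟩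
    · rintro ⟨z, rfl⟩
      obtain ⟨n, rfl⟩ := h1 z
      exact ⟨n, by simp only [zpow_natCast]; rw [← map_pow, u_pow]⟩
  · intro g
    rw [hB]
    constructor
    · rintro ⟨i, rfl⟩
      obtain ⟨n, hn | hn⟩ := i.eq_nat_or_neg
      · exact ⟨n * y, by simp only [hn, zpow_natCast]; rw [← map_pow, l_pow]⟩
      · exact ⟨-(n * y), by simp only [hn, _root_.zpow_neg, zpow_natCast]; rw [← map_pow, l_pow, ← map_inv, l_inv]⟩
    · rintro ⟨z, rfl⟩
      obtain ⟨n, hn⟩ := hcs (z / y)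
      refine ⟨n, ?_⟩
      simp only [zpow_natCast]
      rw [← map_pow, l_pow, hn]
      congr 2
      field_simp

theorem d_l_neg {K : Type*} [Field K] : ∀ x : K, wl * u x * wl⁻¹ = l (-x) := by
  intro x
  rw [mul_inv_eq_iff_eq_mul]
  apply Subtype.ext
  ext i j
  fin_cases i <;> fin_cases j <;> simp [Matrix.mul_apply, Fin.sum_univ_two]

theorem wl_sq {K : Type*} [Field K] : (wl : SpecialLinearGroup (Fin 2) K) * wl = -1 := by
  apply Subtype.ext
  ext i j
  fin_cases i <;> fin_cases j <;> simp [Matrix.mul_apply, Fin.sum_univ_two]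

theorem line_swap {p : ℕ} {A B : Subgroup G} (h : Line p A B) :
    ∃ w ∈ A ⊔ B, cj w A = B ∧ w ^ 4 = 1 ∧ ∀ x ∈ A ⊔ B, w ^ 2 * x = x * w ^ 2 := by
  obtain ⟨K, _, _, φ, hK, hφ, hX, hA, hB⟩ := h
  refine ⟨φ wl, by rw [← hX]; exact ⟨_, rfl⟩, ?_, ?_, ?_⟩
  · ext g
    rw [hB]
    constructor
    · rintro ⟨a, ha, rfl⟩
      obtain ⟨x, rfl⟩ := (hA a).1 ha
      refine ⟨-x, ?_⟩
      rw [← d_l_neg, map_mul, map_mul, map_inv]
      rfl
    · rintro ⟨x, rfl⟩
      refine ⟨φ (u (-x)), (hA _).2 ⟨_, rfl⟩, ?_⟩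
      have := d_l_neg (-x)
      rw [neg_neg] at this
      rw [← this, map_mul, map_mul, map_inv]
      rfl
  · have : (wl : SpecialLinearGroup (Fin 2) K) ^ 4 = 1 := by
      have e : (wl : SpecialLinearGroup (Fin 2) K) ^ 4 = (wl * wl) * (wl * wl) := by
        rw [pow_succ, pow_succ, pow_succ, pow_one, mul_assoc (wl * wl)]
      rw [e, wl_sq]; simp
    rw [← map_pow, this, map_one]
  · intro x hx
    rw [← hX] at hx
    obtain ⟨z, rfl⟩ := hx
    rw [← map_pow, ← map_mul, ← map_mul]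
    congr 1
    rw [sq, wl_sq]
    simp

/-- Cayley-Hamilton for `SL₂` -/
theorem ch_two {K : Type*} [Field K] (y : SpecialLinearGroup (Fin 2) K) :
    (y : Matrix (Fin 2) (Fin 2) K) * y = (y.1 0 0 + y.1 1 1) • (y : Matrix (Fin 2) (Fin 2) K) - (1 : K) • 1 := by
  have hd : y.1 0 0 * y.1 1 1 - y.1 0 1 * y.1 1 0 = 1 := by
    have := y.2; rwa [Matrix.det_fin_two] at this
  ext i j
  fin_cases i <;> fin_cases j <;> simp [Matrix.mul_apply, Fin.sum_univ_two] <;>
    first | ring1 | linear_combination hd | linear_combination -hd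

theorem pow_three {K : Type*} [Field K] {Y : Matrix (Fin 2) (Fin 2) K} {t : K} (h : Y * Y = t • Y - (1 : K) • 1) :
    Y ^ 3 = (t ^ 2 - 1) • Y - t • (1 : Matrix (Fin 2) (Fin 2) K) := by
  calc Y ^ 3 = (Y * Y) * Y := by rw [pow_succ, sq]
    _ = (t • Y - (1 : K) • 1) * Y := by rw [h]
    _ = t • (Y * Y) - Y := by rw [sub_mul, smul_mul_assoc, smul_mul_assoc, one_mul, one_smul]
    _ = t • (t • Y - (1 : K) • 1) - Y := by rw [h]
    _ = _ := by module

theorem pow_four {K : Type*} [Field K] {Y : Matrix (Fin 2) (Fin 2) K} {t : K} (h : Y * Y = t • Y - (1 : K) • 1) :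
    Y ^ 4 = (t ^ 3 - 2 * t) • Y - (t ^ 2 - 1) • (1 : Matrix (Fin 2) (Fin 2) K) := by
  calc Y ^ 4 = Y ^ 3 * Y := by rw [pow_succ]
    _ = ((t ^ 2 - 1) • Y - t • (1 : Matrix (Fin 2) (Fin 2) K)) * Y := by rw [pow_three h]
    _ = (t ^ 2 - 1) • (Y * Y) - t • Y := by rw [sub_mul, smul_mul_assoc, smul_mul_assoc, one_mul]
    _ = (t ^ 2 - 1) • (t • Y - (1 : K) • 1) - t • Y := by rw [h]
    _ = _ := by module

theorem pow_five {K : Type*} [Field K] {Y : Matrix (Fin 2) (Fin 2) K} {t : K} (h : Y * Y = t • Y - (1 : K) • 1) :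
    Y ^ 5 = (t ^ 4 - 3 * t ^ 2 + 1) • Y - (t ^ 3 - 2 * t) • (1 : Matrix (Fin 2) (Fin 2) K) := by
  calc Y ^ 5 = Y ^ 4 * Y := by rw [pow_succ]
    _ = ((t ^ 3 - 2 * t) • Y - (t ^ 2 - 1) • (1 : Matrix (Fin 2) (Fin 2) K)) * Y := by rw [pow_four h]
    _ = (t ^ 3 - 2 * t) • (Y * Y) - (t ^ 2 - 1) • Y := by rw [sub_mul, smul_mul_assoc, smul_mul_assoc, one_mul]
    _ = (t ^ 3 - 2 * t) • (t • Y - (1 : K) • 1) - (t ^ 2 - 1) • Y := by rw [h]
    _ = _ := by module

/-- element orders in `SL₂(5)` modulo `±1` -/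
theorem sl_five {K : Type*} [Field K] [Fintype K] (hK : Fintype.card K = 5) (z : SpecialLinearGroup (Fin 2) K) :
    (z ^ 2 = 1 ∨ z ^ 2 = -1) ∨ (z ^ 3 = 1 ∨ z ^ 3 = -1) ∨ (z ^ 5 = 1 ∨ z ^ 5 = -1) := by
  classical
  have hp5 : Nat.Prime 5 := by norm_num
  have : Fact (Nat.Prime 5) := ⟨hp5⟩
  have hch : CharP K 5 := charP_of_card_eq_prime hK
  have h50 : (5 : K) = 0 := by exact_mod_cast CharP.cast_eq_zero K 5
  have h := ch_two z
  set t := z.1 0 0 + z.1 1 1 with ht
  have e2 : (z : Matrix (Fin 2) (Fin 2) K) ^ 2 = t • (z : Matrix (Fin 2) (Fin 2) K) - (1 : K) • 1 := by rw [sq]; exact h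
  -- `t ^ 5 = t`
  have h5 : t ^ 5 = t := by rw [← hK]; exact FiniteField.pow_card t
  have h6 : t * (t ^ 2 - 1) * (t ^ 2 - 4) = 0 := by linear_combination h5 - (t ^ 3 - t) * h50
  have key : ∀ (n : ℕ), ((z : Matrix (Fin 2) (Fin 2) K) ^ n = 1 → z ^ n = 1) ∧
      ((z : Matrix (Fin 2) (Fin 2) K) ^ n = -1 → z ^ n = -1) := by
    intro n
    constructor
    · intro h7
      apply Subtype.ext
      rw [Matrix.SpecialLinearGroup.coe_pow, h7]; rfl
    · intro h7
      apply Subtype.ext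
      rw [Matrix.SpecialLinearGroup.coe_pow, h7]
      rfl
  rcases mul_eq_zero.1 h6 with h7 | h7
  · rcases mul_eq_zero.1 h7 with h8 | h8
    · left; right
      apply (key 2).2
      rw [e2, h8]; simp
    · right; left
      have e3 := pow_three h
      rw [h8, zero_smul, zero_sub] at e3
      have h9 : (t - 1) * (t + 1) = 0 := by linear_combination h8
      rcases mul_eq_zero.1 h9 with h10 | h10
      · right
        apply (key 3).2
        rw [e3, sub_eq_zero.1 h10, one_smul]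
      · left
        apply (key 3).1
        rw [e3, eq_neg_of_add_eq_zero_left h10]; simp
  · right; right
    have e5 := pow_five h
    have h8 : t ^ 4 - 3 * t ^ 2 + 1 = 0 := by linear_combination (t ^ 2 + 1) * h7 + h50
    have h9 : (t - 2) * (t + 2) = 0 := by linear_combination h7
    rw [h8, zero_smul, zero_sub] at e5
    rcases mul_eq_zero.1 h9 with h10 | h10
    · left
      apply (key 5).1
      rw [e5, sub_eq_zero.1 h10]
      have : ((2 : K) ^ 3 - 2 * 2) = -1 := by linear_combination h50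
      rw [this]; simp
    · right
      apply (key 5).2
      rw [e5, eq_neg_of_add_eq_zero_left h10]
      have : ((-2 : K) ^ 3 - 2 * -2) = 1 := by linear_combination -h50
      rw [this]; simp

theorem line_five {A B : Subgroup G} (h : Line 5 A B)
    (h2 : ∀ x : G, (∀ y ∈ A ⊔ B, x * y = y * x) → x ^ 2 = 1 → x = 1) :
    ∀ z ∈ A ⊔ B, z ^ 2 = 1 ∨ z ^ 3 = 1 ∨ z ^ 5 = 1 := by
  obtain ⟨K, _, _, φ, hK, hφ, hX, hA, hB⟩ := h
  have hm1 : φ (-1) = 1 := by
    apply h2
    · intro y hy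
      rw [← hX] at hy
      obtain ⟨z, rfl⟩ := hy
      rw [← map_mul, ← map_mul]
      congr 1
      simp
    · rw [← map_pow]; simp
  intro z hz
  rw [← hX] at hz
  obtain ⟨y, rfl⟩ := hz
  have key : ∀ n : ℕ, (y ^ n = 1 ∨ y ^ n = -1) → (φ y) ^ n = 1 := by
    intro n hn
    rw [← map_pow]
    rcases hn with h | h
    · rw [h, map_one]
    · rw [h, hm1]
  rcases sl_five hK y with h1 | h1 | h1
  · exact Or.inl (key 2 h1)
  · exact Or.inr (Or.inl (key 3 h1))
  · exact Or.inr (Or.inr (key 5 h1))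

/-- (F4) counting, arbitrary multiplier -/
theorem Pr.count_sq {p : ℕ} (hp : p.Prime) (hp5 : 5 ≤ p) [Finite G] {A : Subgroup G} (h : Pr p A) {g₀ : G}
    (hg₀ : ¬ Cm A (cj g₀ A)) (s : ℕ) (hs : ¬ p ∣ s) :
    ∃ t : G, (∀ a ∈ A, t * a * t⁻¹ = a ^ (s ^ 2)) ∧ t ^ (p - 1) = 1 ∧ (∃ w : G, w * t * w⁻¹ = t⁻¹) ∧
      Nat.card G ≤ Nat.card (centralizer (A : Set G)) ^ 2 * (1 + Nat.card (centralizer ({t} : Set G))) := by
  classical
  have : Fintype G := Fintype.ofFinite G
  -- the torus elements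
  have hex : ∀ g : G, ∃ t : G, ¬ Cm A (cj g A) → (∀ a ∈ A, t * a * t⁻¹ = a ^ (s ^ 2)) ∧
      (∀ b ∈ cj g A, t⁻¹ * b * t = b ^ (s ^ 2)) ∧ t ^ (p - 1) = 1 ∧ ∃ w : G, w * t * w⁻¹ = t⁻¹ := by
    intro g
    by_cases hg : Cm A (cj g A)
    · exact ⟨1, fun hc => absurd hg hc⟩
    · obtain ⟨t, -, h1, h2, h3, w, -, h4⟩ := (h.exists_pair hp hp5 hg).exists_sq hp hp5 s hs
      exact ⟨t, fun _ => ⟨h1, h2, h3, w, h4⟩⟩
  choose τ hτ using hex
  set C := centralizer (A : Set G) with hC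
  set S : Finset G := Finset.univ.filter (fun g => ¬ Cm A (cj g A)) with hS
  have hSne : S.Nonempty := ⟨g₀, by rw [hS, Finset.mem_filter]; exact ⟨Finset.mem_univ _, hg₀⟩⟩
  obtain ⟨g₁, hg₁, hmax⟩ := S.exists_max_image (fun g => Nat.card (centralizer ({τ g} : Set G))) hSne
  have hg₁' : ¬ Cm A (cj g₁ A) := (Finset.mem_filter.1 hg₁).2
  obtain ⟨hA1, -, h3, h4⟩ := hτ g₁ hg₁'
  set M := Nat.card (centralizer ({τ g₁} : Set G)) with hM
  refine ⟨τ g₁, hA1, h3, h4, ?_⟩
  set CF : Finset G := Finset.univ.filter (fun g => g ∈ C) with hCF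
  have hCFc : CF.card = Nat.card C := by
    rw [hCF, Nat.card_eq_fintype_card, ← Fintype.card_subtype]
  -- same action on `A` implies same coset
  have hcos : ∀ x : G, (∀ a ∈ A, x * a * x⁻¹ = a ^ (s ^ 2)) → (τ g₁)⁻¹ * x ∈ C := by
    intro x hx
    rw [hC, mem_centralizer_iff]
    intro a ha
    have e1 : x * a * x⁻¹ = τ g₁ * a * (τ g₁)⁻¹ := by rw [hx a ha, hA1 a ha]
    have e2 : x * a = τ g₁ * a * (τ g₁)⁻¹ * x := by rw [← e1]; group
    calc a * ((τ g₁)⁻¹ * x) = (τ g₁)⁻¹ * (τ g₁ * a * (τ g₁)⁻¹ * x) := by group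
      _ = (τ g₁)⁻¹ * (x * a) := by rw [e2]
      _ = (τ g₁)⁻¹ * x * a := by group
  have hScard : S.card ≤ M * Nat.card C ^ 2 := by
    have h5 := Finset.card_le_mul_card_image (f := fun g => ((τ g₁)⁻¹ * τ g, (τ g₁)⁻¹ * (g⁻¹ * (τ g)⁻¹ * g))) S M ?_
    · refine le_trans h5 (Nat.mul_le_mul_left _ ?_)
      have h6 : S.image (fun g => ((τ g₁)⁻¹ * τ g, (τ g₁)⁻¹ * (g⁻¹ * (τ g)⁻¹ * g))) ⊆ CF ×ˢ CF := by
        intro x hx
        rw [Finset.mem_image] at hx
        obtain ⟨g, hg, rfl⟩ := hx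
        obtain ⟨k1, k2, -, -⟩ := hτ g (Finset.mem_filter.1 hg).2
        rw [Finset.mem_product, hCF, Finset.mem_filter, Finset.mem_filter]
        refine ⟨⟨Finset.mem_univ _, hcos _ k1⟩, ⟨Finset.mem_univ _, hcos _ ?_⟩⟩
        intro a ha
        have e3 := k2 _ (conj_mem_cj (g := g) ha)
        have e4 : g⁻¹ * (τ g)⁻¹ * g * a * (g⁻¹ * (τ g)⁻¹ * g)⁻¹ = g⁻¹ * ((τ g)⁻¹ * (g * a * g⁻¹) * τ g) * g := by group
        rw [e4, e3, conj_pow]
        group
      calc (S.image _).card ≤ (CF ×ˢ CF).card := Finset.card_le_card h6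
        _ = Nat.card C ^ 2 := by rw [Finset.card_product, hCFc, sq]
    · intro x hx
      rw [Finset.mem_image] at hx
      obtain ⟨g, hg, rfl⟩ := hx
      have h7 : ({y ∈ S | ((τ g₁)⁻¹ * τ y, (τ g₁)⁻¹ * (y⁻¹ * (τ y)⁻¹ * y)) =
          ((τ g₁)⁻¹ * τ g, (τ g₁)⁻¹ * (g⁻¹ * (τ g)⁻¹ * g))} : Finset G).card ≤
          (Finset.univ.filter (fun z => z ∈ centralizer ({τ g} : Set G))).card := by
        apply Finset.card_le_card_of_injOn (fun y => y * g⁻¹)
        · intro y hy
          simp only [Finset.coe_filter, Set.mem_ofPred_eq, Prod.mk.injEq, mul_right_inj] at hy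
          obtain ⟨-, hy1, hy2⟩ := hy
          simp only [Finset.coe_filter, Set.mem_ofPred_eq, Finset.mem_univ, true_and]
          rw [mem_centralizer_singleton_iff]
          rw [hy1] at hy2
          have e5 : y * g⁻¹ * (τ g)⁻¹ = (τ g)⁻¹ * (y * g⁻¹) := by
            calc y * g⁻¹ * (τ g)⁻¹ = y * (g⁻¹ * (τ g)⁻¹ * g) * g⁻¹ := by group
              _ = y * (y⁻¹ * (τ g)⁻¹ * y) * g⁻¹ := by rw [hy2]
              _ = _ := by group
          have e6 : τ g * (y * g⁻¹ * (τ g)⁻¹) * τ g = τ g * ((τ g)⁻¹ * (y * g⁻¹)) * τ g := by rw [e5]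
          have e7 : τ g * (y * g⁻¹) = (y * g⁻¹) * τ g := by
            calc τ g * (y * g⁻¹) = τ g * (y * g⁻¹ * (τ g)⁻¹) * τ g := by group
              _ = τ g * ((τ g)⁻¹ * (y * g⁻¹)) * τ g := e6
              _ = _ := by group
          first | exact e7 | exact e7.symm
        · intro y _ z _ hyz
          exact mul_right_cancel hyz
      refine le_trans h7 ?_
      have h8 := hmax g hg
      refine le_trans (le_of_eq ?_) h8
      rw [Nat.card_eq_fintype_card, ← Fintype.card_subtype]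
  -- the commuting conjugates
  obtain ⟨a₀, ha₀, -, hAa⟩ := exists_gen hp A h.card
  have hTcard : (Finset.univ.filter (fun g => Cm A (cj g A))).card ≤ Nat.card C ^ 2 := by
    have h5 := Finset.card_le_mul_card_image (f := fun g => g * a₀ * g⁻¹)
      (Finset.univ.filter (fun g => Cm A (cj g A))) (Nat.card C) ?_
    · refine le_trans h5 ?_
      rw [sq]
      refine Nat.mul_le_mul_left _ ?_
      rw [← hCFc]
      apply Finset.card_le_card
      intro x hx
      rw [Finset.mem_image] at hx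
      obtain ⟨g, hg, rfl⟩ := hx
      rw [hCF, Finset.mem_filter]
      refine ⟨Finset.mem_univ _, ?_⟩
      rw [hC, mem_centralizer_iff]
      intro a ha
      exact (Finset.mem_filter.1 hg).2 a ha _ (conj_mem_cj ha₀)
    · intro x hx
      rw [Finset.mem_image] at hx
      obtain ⟨g, hg, rfl⟩ := hx
      rw [← hCFc]
      apply Finset.card_le_card_of_injOn (fun y => g⁻¹ * y)
      · intro y hy
        simp only [Finset.coe_filter, Set.mem_ofPred_eq] at hy
        obtain ⟨-, hy⟩ := hy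
        simp only [hCF, Finset.coe_filter, Set.mem_ofPred_eq, Finset.mem_univ, true_and]
        rw [hC, mem_centralizer_iff]
        intro a ha
        rw [SetLike.mem_coe, hAa] at ha
        obtain ⟨i, rfl⟩ := ha
        have e1 : Commute a₀ (g⁻¹ * y) := by
          show a₀ * (g⁻¹ * y) = (g⁻¹ * y) * a₀
          calc a₀ * (g⁻¹ * y) = g⁻¹ * (g * a₀ * g⁻¹) * y := by group
            _ = g⁻¹ * (y * a₀ * y⁻¹) * y := by rw [hy]
            _ = (g⁻¹ * y) * a₀ := by group
        exact e1.zpow_left i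
      · intro y _ z _ hyz
        exact mul_left_cancel hyz
  have htot : Nat.card G = (Finset.univ.filter (fun g => Cm A (cj g A))).card + S.card := by
    rw [Nat.card_eq_fintype_card, ← Finset.card_univ, hS]
    exact (Finset.card_filter_add_card_filter_not (s := Finset.univ) (fun g => Cm A (cj g A))).symm
  rw [htot]
  calc _ ≤ Nat.card C ^ 2 + M * Nat.card C ^ 2 := Nat.add_le_add hTcard hScard
    _ = _ := by ring

/-- (F5) counting involutions -/
theorem Pr.count_inv {p : ℕ} (hp : p.Prime) (hp5 : 5 ≤ p) [Finite G] {A : Subgroup G} (h : Pr p A)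
    (hO : ∀ x ∈ centralizer (A : Set G), x ^ p = 1 → x ∈ A)
    (h2 : ∀ x ∈ centralizer (A : Set G), x ^ 2 = 1 → x = 1) :
    Nat.card G ≤ Nat.card (normalizer (A : Set G)) * Nat.card {w : G // w ^ 2 = 1} := by
  classical
  have : Fintype G := Fintype.ofFinite G
  have hex : ∀ g : G, ∃ w : G, w ^ 2 = 1 ∧ cj w A = cj g A := by
    intro g
    by_cases hg : Cm A (cj g A)
    · refine ⟨1, one_pow _, ?_⟩
      rw [cj_one]
      symm
      apply Subgroup.eq_of_le_of_card_ge
      · intro x hx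
        have hx1 : x ^ p = 1 := by
          have := pow_card_eq_one' (x := (⟨x, hx⟩ : cj g A))
          rw [h.card_cj g] at this
          exact congrArg Subtype.val this
        refine hO x ?_ hx1
        rw [mem_centralizer_iff]
        intro a ha
        exact hg a ha x hx
      · rw [h.card_cj, h.card]
    · have hl := (h.exists_pair hp hp5 hg).line hp hp5 hO
      obtain ⟨w, hw, hwA, hw4, hwc⟩ := line_swap hl
      refine ⟨w, ?_, hwA⟩
      apply h2
      · rw [mem_centralizer_iff]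
        intro a ha
        exact (hwc a (mem_sup_left ha)).symm
      · rw [← pow_mul]; exact hw4
  choose f hf1 hf2 using hex
  have h5 := Finset.card_le_mul_card_image (f := fun g => f g) (Finset.univ : Finset G)
    (Nat.card (normalizer (A : Set G))) ?_
  · rw [Finset.card_univ, ← Nat.card_eq_fintype_card] at h5
    refine le_trans h5 (Nat.mul_le_mul_left _ ?_)
    rw [Nat.card_eq_fintype_card, Fintype.card_subtype]
    apply Finset.card_le_card
    intro x hx
    rw [Finset.mem_image] at hx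
    obtain ⟨g, -, rfl⟩ := hx
    rw [Finset.mem_filter]
    exact ⟨Finset.mem_univ _, hf1 g⟩
  · intro x hx
    rw [Finset.mem_image] at hx
    obtain ⟨g, -, rfl⟩ := hx
    rw [Nat.card_eq_fintype_card, Fintype.card_subtype]
    apply Finset.card_le_card_of_injOn (fun y => g⁻¹ * y)
    · intro y hy
      simp only [Finset.coe_filter, Set.mem_ofPred_eq, Finset.mem_univ, true_and] at hy ⊢
      rw [Subgroup.mem_normalizer_iff_map_conj_eq]
      have e : cj y A = cj g A := by rw [← hf2 y, hy, hf2 g]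
      have e2 : cj (g⁻¹ * y) A = cj g⁻¹ (cj y A) := (cj_cj _ _ _).symm
      show cj (g⁻¹ * y) A = A
      rw [e2, e, cj_cj, inv_mul_cancel, cj_one]
    · intro y _ z _ hyz
      exact mul_left_cancel hyz

end Cfsg.Agent.H103.Tor
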