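import Mathlib

/-!
# S3235: elements of `SL_n` which are not real modulo scalars (helper103)

`S` a commutative `F`-algebra, `D : S →ₐ[F] M_n(F)` injective, `z ∈ Sˣ` with `det (D z) = 1`:
* `Alg.pow_eq_one` : if the image of `D z` in `PSL_n` has `z ^ k = 1` then `z ^ k ∈ F`;
* `Alg.real` : if it is conjugate to its inverse then there is `c ∈ Fˣ` such that every polynomial killing `z` kills
  `c z⁻¹`;
* `root_pow` : the roots of the minimal polynomial over a finite field.
-/

set_option autoImplicit false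

namespace Cfsg.Agent.H103.Tor.Singer

open Matrix Module

/-- the image in `PSL_n` -/
abbrev pr {n : ℕ} {F : Type*} [Field F] (Z : SpecialLinearGroup (Fin n) F) :
    ProjectiveSpecialLinearGroup (Fin n) F := QuotientGroup.mk' _ Z

section Alg

variable {n : ℕ} {F : Type*} [Field F] {S : Type*} [CommRing S] [Algebra F S]
  (D : S →ₐ[F] Matrix (Fin n) (Fin n) F) (hD : Function.Injective D)

include hD

theorem pow_mem_of_pr (hn : 0 < n) {Z : SpecialLinearGroup (Fin n) F} {z : S} (hZ : (Z : Matrix (Fin n) (Fin n) F) = D z)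
    {k : ℕ} (h : pr Z ^ k = 1) : ∃ c : F, c ≠ 0 ∧ z ^ k = algebraMap F S c := by
  rw [← map_pow, QuotientGroup.mk'_apply, QuotientGroup.eq_one_iff] at h
  obtain ⟨c, hc, hcZ⟩ := Matrix.SpecialLinearGroup.mem_center_iff.1 h
  refine ⟨c, ?_, ?_⟩
  · rintro rfl
    rw [zero_pow (by simpa using hn.ne')] at hc
    exact zero_ne_one hc
  · apply hD
    rw [map_pow, ← hZ, ← Matrix.SpecialLinearGroup.coe_pow, ← hcZ, AlgHom.commutes]
    rfl

theorem real_of_pr (hn : 0 < n) {Z : SpecialLinearGroup (Fin n) F} {z : S} (hZ : (Z : Matrix (Fin n) (Fin n) F) = D z)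
    {z' : S} (hz' : z' * z = 1) (h : ∃ t : ProjectiveSpecialLinearGroup (Fin n) F, t * pr Z * t⁻¹ = (pr Z)⁻¹) :
    ∃ c : F, c ≠ 0 ∧ ∀ m : Polynomial F, Polynomial.aeval z m = 0 →
      Polynomial.aeval (algebraMap F S c * z') m = 0 := by
  obtain ⟨t, ht⟩ := h
  obtain ⟨T, rfl⟩ := QuotientGroup.mk'_surjective _ t
  have h1 : T * Z * T⁻¹ * Z ∈ Subgroup.center (SpecialLinearGroup (Fin n) F) := by
    rw [← QuotientGroup.eq_one_iff, ← QuotientGroup.mk'_apply]
    have h2 := congrArg (· * pr Z) ht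
    simp only [inv_mul_cancel] at h2
    rw [← h2]
    simp only [map_mul, map_inv]
  obtain ⟨c, hc, hcZ⟩ := Matrix.SpecialLinearGroup.mem_center_iff.1 h1
  refine ⟨c, ?_, fun m hm => ?_⟩
  · rintro rfl
    rw [zero_pow (by simpa using hn.ne')] at hc
    exact zero_ne_one hc
  · have hzz : D z' * (Z : Matrix (Fin n) (Fin n) F) = 1 := by rw [hZ, ← map_mul, hz', map_one]
    have hTT : ((T⁻¹ : SpecialLinearGroup (Fin n) F) : Matrix (Fin n) (Fin n) F) * (T : Matrix (Fin n) (Fin n) F) = 1 := by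
      rw [← Matrix.SpecialLinearGroup.coe_mul, inv_mul_cancel]; rfl
    have hTT' : (T : Matrix (Fin n) (Fin n) F) * ((T⁻¹ : SpecialLinearGroup (Fin n) F) : Matrix (Fin n) (Fin n) F) = 1 := by
      rw [← Matrix.SpecialLinearGroup.coe_mul, mul_inv_cancel]; rfl
    have hzz' : (Z : Matrix (Fin n) (Fin n) F) * D z' = 1 := by rw [hZ, ← map_mul, mul_comm, hz', map_one]
    have h3 : (T : Matrix (Fin n) (Fin n) F) * D z * ((T⁻¹ : SpecialLinearGroup (Fin n) F) : Matrix (Fin n) (Fin n) F) =
        D (algebraMap F S c * z') := by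
      have h4 : (T : Matrix (Fin n) (Fin n) F) * (Z : Matrix (Fin n) (Fin n) F) *
          ((T⁻¹ : SpecialLinearGroup (Fin n) F) : Matrix (Fin n) (Fin n) F) * (Z : Matrix (Fin n) (Fin n) F) =
          algebraMap F (Matrix (Fin n) (Fin n) F) c := by
        have := hcZ
        rw [Matrix.SpecialLinearGroup.coe_mul, Matrix.SpecialLinearGroup.coe_mul,
          Matrix.SpecialLinearGroup.coe_mul] at this
        rw [← this]; rfl
      rw [← hZ, map_mul, AlgHom.commutes, ← h4, mul_assoc _ (Z : Matrix (Fin n) (Fin n) F) (D z'), hzz', mul_one]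
    apply hD
    rw [map_zero, ← Polynomial.aeval_algHom_apply, ← h3]
    -- conjugation
    let φ : Matrix (Fin n) (Fin n) F →ₐ[F] Matrix (Fin n) (Fin n) F :=
      { toFun := fun x => (T : Matrix (Fin n) (Fin n) F) * x *
          ((T⁻¹ : SpecialLinearGroup (Fin n) F) : Matrix (Fin n) (Fin n) F)
        map_one' := by rw [mul_one, hTT']
        map_mul' := fun x y => by
          have e : ∀ P Q : Matrix (Fin n) (Fin n) F, Q * P = 1 → P * (x * y) * Q = P * x * Q * (P * y * Q) := by
            intro P Q hQP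
            calc P * (x * y) * Q = P * x * (Q * P) * (y * Q) := by rw [hQP, mul_one]; simp only [mul_assoc]
              _ = P * x * Q * (P * y * Q) := by simp only [mul_assoc]
          exact e _ _ hTT
        map_zero' := by rw [mul_zero, zero_mul]
        map_add' := fun x y => by rw [mul_add, add_mul]
        commutes' := fun r => by
          rw [← Algebra.commutes r, mul_assoc, hTT', mul_one] }
    have h5 : (T : Matrix (Fin n) (Fin n) F) * D z * ((T⁻¹ : SpecialLinearGroup (Fin n) F) : Matrix (Fin n) (Fin n) F) =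
        φ (D z) := rfl
    rw [h5, Polynomial.aeval_algHom_apply, Polynomial.aeval_algHom_apply, hm, map_zero, map_zero]

end Alg

/-- the roots of the minimal polynomial over a finite field -/
theorem root_pow {F E : Type*} [Field F] [Fintype F] [Field E] [Algebra F E] [FiniteDimensional F E] {z x : E}
    (h : Polynomial.aeval x (minpoly F z) = 0) : ∃ i < finrank F E, x = z ^ (Fintype.card F ^ i) := by
  have : Finite E := Module.finite_of_finite F
  have hint : IsIntegral F z := Algebra.IsIntegral.isIntegral z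
  have h1 : IsConjRoot F z x := (isConjRoot_iff_aeval_eq_zero hint).2 h
  obtain ⟨σ, hσ⟩ := isConjRoot_iff_exists_algEquiv.1 h1.symm
  obtain ⟨⟨i, hi⟩, rfl⟩ := (FiniteField.bijective_frobeniusAlgEquivOfAlgebraic_pow F E).2 σ
  refine ⟨i, hi, ?_⟩
  rw [← hσ]
  have key : ∀ j : ℕ, (FiniteField.frobeniusAlgEquivOfAlgebraic F E ^ j) z = z ^ (Fintype.card F ^ j) := by
    intro j
    induction j with
    | zero => simp
    | succ j ih =>
      rw [pow_succ', AlgEquiv.mul_apply, ih]
      simp [← pow_mul, pow_succ]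
  exact key i

/-- the geometric sum -/
def gs (q n : ℕ) : ℕ := ∑ i ∈ Finset.range n, q ^ i

theorem gs_succ (q n : ℕ) : gs q (n + 1) = q * gs q n + 1 := by
  unfold gs
  rw [Finset.sum_range_succ', Finset.mul_sum]
  simp [pow_succ']

theorem gs_mul {q : ℕ} (hq : 1 ≤ q) (n : ℕ) : gs q n * (q - 1) = q ^ n - 1 := by
  have h : gs q n * (q - 1) + 1 = q ^ n := by
    induction n with
    | zero => simp [gs]
    | succ n ih =>
      rw [gs_succ, pow_succ, ← ih]
      obtain ⟨c, rfl⟩ : ∃ c, q = c + 1 := ⟨q - 1, by omega⟩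
      simp only [Nat.add_sub_cancel]
      ring
  omega

theorem gs_lower {q : ℕ} (n : ℕ) : q ^ (n + 2) + q + 1 ≤ gs q (n + 3) := by
  unfold gs
  rw [Finset.sum_range_succ, Finset.sum_range_succ', Finset.sum_range_succ']
  simp
  omega

/-- a generator of the multiplicative group -/
theorem exists_gen (F : Type*) [Field F] [Fintype F] {E : Type*} [Field E] [Algebra F E] [FiniteDimensional F E] :
    ∃ z : E, z ≠ 0 ∧ z ^ (Fintype.card F ^ finrank F E - 1) = 1 ∧
      ∀ m : ℕ, z ^ m = 1 → Fintype.card F ^ finrank F E - 1 ∣ m := by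
  have : Finite E := Module.finite_of_finite F
  obtain ⟨g, hg⟩ := IsCyclic.exists_generator (α := Eˣ)
  have h1 : orderOf g = Fintype.card F ^ finrank F E - 1 := by
    rw [orderOf_eq_card_of_forall_mem_zpowers hg, Nat.card_units, Module.natCard_eq_pow_finrank (K := F),
      Nat.card_eq_fintype_card]
  refine ⟨g, g.ne_zero, ?_, ?_⟩
  · rw [← h1, ← Units.val_pow_eq_pow_val, pow_orderOf_eq_one]; rfl
  · intro m hm
    rw [← h1]
    apply orderOf_dvd_of_pow_eq_one
    apply Units.ext
    rw [Units.val_pow_eq_pow_val, hm]; rfl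

theorem pow_card_sub_one {F : Type*} [Field F] [Fintype F] {c : F} (hc : c ≠ 0) : c ^ (Fintype.card F - 1) = 1 :=
  FiniteField.pow_card_sub_one_eq_one c hc

section Ext

variable {F : Type} [Field F] [Fintype F]

theorem exists_ext (k : ℕ) (hk : 0 < k) : ∃ (E : Type) (_ : Field E) (_ : Algebra F E) (_ : FiniteDimensional F E),
    finrank F E = k := by
  obtain ⟨r, hr⟩ := CharP.exists F
  have hr' : Fact r.Prime := ⟨CharP.char_is_prime F r⟩
  have : NeZero k := ⟨hk.ne'⟩
  exact ⟨FiniteField.Extension F r k, inferInstance, inferInstance, inferInstance,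
    FiniteField.finrank_extension F r k⟩

theorem gs_arith {q n i : ℕ} (hq : 2 ≤ q) (hn : 3 ≤ n) (hi : i < n) : ¬ gs q n ∣ (q ^ i + 1) * (q - 1) := by
  obtain ⟨m, rfl⟩ : ∃ m, n = m + 3 := ⟨n - 3, by omega⟩
  have h1 := gs_lower (q := q) m
  intro hd
  rcases Nat.lt_or_ge i (m + 2) with h2 | h2
  · have h3 : (q ^ i + 1) * (q - 1) + q ^ i + 1 = q ^ (i + 1) + q := by
      obtain ⟨c, rfl⟩ : ∃ c, q = c + 1 := ⟨q - 1, by omega⟩
      simp only [Nat.add_sub_cancel]
      ring
    have h4 : q ^ (i + 1) ≤ q ^ (m + 2) := Nat.pow_le_pow_right (by omega) (by omega)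
    have h5 := Nat.le_of_dvd (Nat.mul_pos (by positivity) (by omega)) hd
    omega
  · obtain rfl : i = m + 2 := by omega
    have h3 : (q ^ (m + 2) + 1) * (q - 1) + (q ^ (m + 2) - q) = gs q (m + 3) * (q - 1) := by
      rw [gs_mul (by omega)]
      have h6 : q ≤ q ^ (m + 2) := Nat.le_self_pow (by omega) q
      have h7 : q ^ (m + 3) = q ^ (m + 2) * q := pow_succ _ _
      have h8 : (q ^ (m + 2) + 1) * (q - 1) + q ^ (m + 2) + 1 = q ^ (m + 3) + q := by
        obtain ⟨c, rfl⟩ : ∃ c, q = c + 1 := ⟨q - 1, by omega⟩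
        simp only [Nat.add_sub_cancel]
        ring
      have h9 : 1 ≤ q ^ (m + 3) := Nat.one_le_pow _ _ (by omega)
      omega
    have h4 : gs q (m + 3) ∣ q ^ (m + 2) - q := by
      have h5 : gs q (m + 3) ∣ (q ^ (m + 2) + 1) * (q - 1) + (q ^ (m + 2) - q) := by
        rw [h3]; exact dvd_mul_right _ _
      exact (Nat.dvd_add_right hd).1 h5
    have h5 : q < q ^ (m + 2) := by
      have : q ^ 1 < q ^ (m + 2) := Nat.pow_lt_pow_right (by omega) (by omega)
      simpa using this
    have h6 := Nat.le_of_dvd (by omega) h4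
    omega

omit [Fintype F] in
theorem exists_sl {n : ℕ} {S : Type*} [CommRing S] [Algebra F S] (b : Basis (Fin n) F S) {z : S}
    (h : Algebra.norm F z = 1) : ∃ Z : SpecialLinearGroup (Fin n) F,
      (Z : Matrix (Fin n) (Fin n) F) = Algebra.leftMulMatrix b z ∧ ∀ k, z ^ k = 1 → Z ^ k = 1 := by
  have hdet : (Algebra.leftMulMatrix b z).det = 1 := by
    rw [← Algebra.norm_eq_matrix_det, h]
  obtain ⟨Z, hZ⟩ : ∃ Z : SpecialLinearGroup (Fin n) F, (Z : Matrix (Fin n) (Fin n) F) = Algebra.leftMulMatrix b z :=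
    ⟨⟨_, hdet⟩, rfl⟩
  refine ⟨Z, hZ, fun k hk => ?_⟩
  apply Subtype.ext
  have h1 : ((Z ^ k : SpecialLinearGroup (Fin n) F) : Matrix (Fin n) (Fin n) F) = 1 := by
    rw [Matrix.SpecialLinearGroup.coe_pow, hZ, ← map_pow, hk, map_one]
  exact h1

/-- **the Singer element** -/
theorem singer {n : ℕ} (hn : 3 ≤ n) : ∃ Z : SpecialLinearGroup (Fin n) F, Z ^ (Fintype.card F ^ n - 1) = 1 ∧
    (∀ k, pr Z ^ k = 1 → gs (Fintype.card F) n ∣ k * (Fintype.card F - 1)) ∧
    ¬ ∃ t : ProjectiveSpecialLinearGroup (Fin n) F, t * pr Z * t⁻¹ = (pr Z)⁻¹ := by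
  obtain ⟨E, _, _, _, hE⟩ := exists_ext (F := F) n (by omega)
  obtain ⟨θ, hθ0, hθ1, hθ⟩ := exists_gen F (E := E)
  rw [hE] at hθ1 hθ
  set q := Fintype.card F with hq
  have hq2 : 2 ≤ q := Fintype.one_lt_card
  have hgs := gs_mul (q := q) (by omega) n
  have hgs' : ∀ m : ℕ, θ ^ (m * (q - 1)) = 1 → gs q n ∣ m := by
    intro m hm
    have h1 := hθ _ hm
    rw [← hgs] at h1
    exact Nat.dvd_of_mul_dvd_mul_right (by omega) h1
  let b : Basis (Fin n) F E := Module.finBasisOfFinrankEq F E hE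
  have hD := Algebra.leftMulMatrix_injective b
  set z := θ ^ (q - 1) with hz
  have hz0 : z ≠ 0 := pow_ne_zero _ hθ0
  have hnorm : Algebra.norm F z = 1 := by
    rw [hz, map_pow, hq]
    apply pow_card_sub_one
    rw [Ne, Algebra.norm_eq_zero_iff]
    exact hθ0
  obtain ⟨Z, hZ, hZk⟩ := exists_sl b hnorm
  have hc1 : ∀ c : F, c ≠ 0 → (algebraMap F E c) ^ (q - 1) = 1 := by
    intro c hc
    rw [← map_pow, hq, pow_card_sub_one hc, map_one]
  refine ⟨Z, ?_, ?_, ?_⟩
  · apply hZk
    rw [hz, ← pow_mul, mul_comm, pow_mul, hθ1, one_pow]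
  · intro k hk
    obtain ⟨c, hc, hcz⟩ := pow_mem_of_pr _ hD (by omega) hZ hk
    apply hgs'
    rw [mul_comm, pow_mul, ← hz, pow_mul, hcz, hc1 c hc]
  · intro h
    obtain ⟨c, hc, hm⟩ := real_of_pr _ hD (by omega) hZ (z' := z⁻¹) (inv_mul_cancel₀ hz0) h
    obtain ⟨i, hi, h1⟩ := root_pow (hm _ (minpoly.aeval F z))
    rw [hE] at hi
    apply gs_arith hq2 hn hi
    apply hgs'
    rw [mul_comm, pow_mul, ← hz, pow_mul]
    have h2 : z ^ (q ^ i + 1) = algebraMap F E c := by
      rw [pow_succ, ← h1, mul_assoc, inv_mul_cancel₀ hz0, mul_one]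
    rw [h2, hc1 c hc]

theorem norm_prod' {E : Type*} [Field E] [Algebra F E] [FiniteDimensional F E] (x : E) (y : F) :
    Algebra.norm F ((x, y) : E × F) = Algebra.norm F x * y := by
  rw [Algebra.norm_apply, Algebra.norm_apply]
  have h1 : (Algebra.lmul F (E × F)) (x, y) = (Algebra.lmul F E x).prodMap (Algebra.lmul F F y) := by
    ext <;> simp
  have h2 : LinearMap.det (Algebra.lmul F F y) = y := by
    have := Algebra.norm_apply F y
    rw [← this, Algebra.norm_self]; rfl
  rw [h1, LinearMap.det_prodMap, h2]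

/-- **the Singer element of a hyperplane** -/
theorem singer' {k : ℕ} (hk : 2 ≤ k) : ∃ Z : SpecialLinearGroup (Fin (k + 1)) F, Z ^ (Fintype.card F ^ k - 1) = 1 ∧
    (∀ j, pr Z ^ j = 1 → gs (Fintype.card F) k ∣ j) ∧
    ((k = 2 → Fintype.card F ≠ 2 ∧ Fintype.card F ≠ 4) →
      ¬ ∃ t : ProjectiveSpecialLinearGroup (Fin (k + 1)) F, t * pr Z * t⁻¹ = (pr Z)⁻¹) := by
  obtain ⟨E, _, _, _, hE⟩ := exists_ext (F := F) k (by omega)
  have : Finite E := Module.finite_of_finite F
  obtain ⟨θ, hθ0, hθ1, hθ⟩ := exists_gen F (E := E)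
  rw [hE] at hθ1 hθ
  set q := Fintype.card F with hq
  have hq2 : 2 ≤ q := Fintype.one_lt_card
  have hgs := gs_mul (q := q) (by omega) k
  have hgs' : ∀ m : ℕ, θ ^ (m * (q - 1)) = 1 → gs q k ∣ m := by
    intro m hm
    have h1 := hθ _ hm
    rw [← hgs] at h1
    exact Nat.dvd_of_mul_dvd_mul_right (by omega) h1
  have hc1 : ∀ c : F, c ≠ 0 → (algebraMap F E c) ^ (q - 1) = 1 := by
    intro c hc
    rw [← map_pow, hq, pow_card_sub_one hc, map_one]
  have hgk : q + 1 ≤ gs q k := by
    obtain ⟨j, rfl⟩ : ∃ j, k = j + 2 := ⟨k - 2, by omega⟩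
    unfold gs
    rw [Finset.sum_range_succ', Finset.sum_range_succ']
    simp
  -- `θ ∉ F`
  have hθF : ∀ c : F, algebraMap F E c ≠ θ := by
    rintro c h
    have hc : c ≠ 0 := by
      rintro rfl
      rw [map_zero] at h
      exact hθ0 h.symm
    have h1 := hgs' 1 (by rw [one_mul, ← h, hc1 c hc])
    have := Nat.le_of_dvd one_pos h1
    omega
  set η : F := (Algebra.norm F θ)⁻¹ with hη
  have hn0 : Algebra.norm F θ ≠ 0 := by
    rw [Ne, Algebra.norm_eq_zero_iff]
    exact hθ0
  have hη0 : η ≠ 0 := inv_ne_zero hn0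
  have hSE : finrank F (E × F) = k + 1 := by
    rw [Module.finrank_prod, hE, Module.finrank_self]
  let b : Basis (Fin (k + 1)) F (E × F) := Module.finBasisOfFinrankEq F (E × F) hSE
  have hD := Algebra.leftMulMatrix_injective b
  have hnorm : Algebra.norm F ((θ, η) : E × F) = 1 := by
    rw [norm_prod', hη, mul_inv_cancel₀ hn0]
  obtain ⟨Z, hZ, hZk⟩ := exists_sl b hnorm
  refine ⟨Z, ?_, ?_, ?_⟩
  · apply hZk
    ext
    · exact hθ1
    · show η ^ (q ^ k - 1) = 1
      rw [← hgs, mul_comm, pow_mul, hq, pow_card_sub_one hη0, one_pow]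
  · intro j hj
    obtain ⟨c, hc, hcz⟩ := pow_mem_of_pr _ hD (by omega) hZ hj
    have h1 : θ ^ j = algebraMap F E c := congrArg Prod.fst hcz
    apply hgs'
    rw [pow_mul, h1, hc1 c hc]
  · intro hex h
    obtain ⟨c, hc, hm⟩ := real_of_pr _ hD (by omega) hZ (z' := (θ⁻¹, η⁻¹))
      (by ext <;> simp [hθ0, hη0]) h
    have hfst : ∀ (x : E × F) (P : Polynomial F), (Polynomial.aeval x P).1 = Polynomial.aeval x.1 P :=
      fun x P => (Polynomial.aeval_algHom_apply (AlgHom.fst F E F) x P).symm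
    have hsnd : ∀ (x : E × F) (P : Polynomial F), (Polynomial.aeval x P).2 = Polynomial.aeval x.2 P :=
      fun x P => (Polynomial.aeval_algHom_apply (AlgHom.snd F E F) x P).symm
    have h1 := hm (minpoly F θ * (Polynomial.X - Polynomial.C η)) (by
      apply Prod.ext
      · rw [hfst]; simp
      · rw [hsnd]; simp)
    have hE1 : Polynomial.aeval (algebraMap F E c * θ⁻¹) (minpoly F θ * (Polynomial.X - Polynomial.C η)) = 0 := by
      have := hfst (algebraMap F (E × F) c * (θ⁻¹, η⁻¹)) (minpoly F θ * (Polynomial.X - Polynomial.C η))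
      rw [h1] at this
      exact this.symm
    have hF1 : Polynomial.aeval (c * η⁻¹) (minpoly F θ * (Polynomial.X - Polynomial.C η)) = 0 := by
      have := hsnd (algebraMap F (E × F) c * (θ⁻¹, η⁻¹)) (minpoly F θ * (Polynomial.X - Polynomial.C η))
      rw [h1] at this
      exact this.symm
    have hint : IsIntegral F θ := Algebra.IsIntegral.isIntegral θ
    have hcη : c * η⁻¹ = η := by
      rw [map_mul] at hF1
      rcases mul_eq_zero.1 hF1 with h2 | h2
      · exfalso
        have h3 : Polynomial.IsRoot (minpoly F θ) (c * η⁻¹) := h2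
        have h4 := Polynomial.degree_eq_one_of_irreducible_of_root (minpoly.irreducible hint) h3
        obtain ⟨d, hd⟩ := minpoly.mem_range_of_degree_eq_one F θ h4
        exact hθF d hd
      · simp at h2
        exact sub_eq_zero.1 h2
    have hr : Polynomial.aeval (algebraMap F E c * θ⁻¹) (minpoly F θ) = 0 := by
      rw [map_mul] at hE1
      rcases mul_eq_zero.1 hE1 with h2 | h2
      · exact h2
      · exfalso
        simp at h2
        have h3 := sub_eq_zero.1 h2
        apply hθF (c * η⁻¹)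
        have h4 : algebraMap F E η ≠ 0 := by
          intro h0; apply hη0; apply (algebraMap F E).injective; rw [h0, map_zero]
        rw [map_mul, map_inv₀, ← h3]
        have h5 : algebraMap F E c ≠ 0 := by
          intro h0; apply hc; apply (algebraMap F E).injective; rw [h0, map_zero]
        field_simp
    obtain ⟨i, hi, h2⟩ := root_pow hr
    rw [hE] at hi
    have h3 : θ ^ (q ^ i + 1) = algebraMap F E c := by
      rw [pow_succ, ← h2, mul_assoc, inv_mul_cancel₀ hθ0, mul_one]
    have h4 : gs q k ∣ q ^ i + 1 := by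
      apply hgs'
      rw [pow_mul, h3, hc1 c hc]
    have h5 := Nat.le_of_dvd (by omega) h4
    rcases Nat.lt_or_ge 2 k with h6 | h6
    · obtain ⟨j, rfl⟩ : ∃ j, k = j + 3 := ⟨k - 3, by omega⟩
      have h7 := gs_lower (q := q) j
      have h8 : q ^ i ≤ q ^ (j + 2) := Nat.pow_le_pow_right (by omega) (by omega)
      omega
    · obtain rfl : k = 2 := by omega
      have hg2 : gs q 2 = q + 1 := by unfold gs; simp [Finset.sum_range_succ]; omega
      rw [hg2] at h5
      have hi1 : i = 1 := by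
        rcases Nat.lt_or_ge i 1 with h7 | h7
        · obtain rfl : i = 0 := by omega
          rw [pow_zero] at h5
          omega
        · omega
      subst hi1
      rw [pow_one] at h3
      obtain ⟨hq2', hq4⟩ := hex rfl
      have h7 : algebraMap F E (Algebra.norm F θ) = θ ^ (q + 1) := by
        rw [FiniteField.algebraMap_norm_eq_pow, Module.natCard_eq_pow_finrank (K := F), hE, Nat.card_eq_fintype_card,
          ← hq, ← hg2, ← gs_mul (by omega), Nat.mul_div_cancel _ (by omega)]
      have h8 : algebraMap F E η * θ ^ (q + 1) = 1 := by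
        rw [← h7, ← map_mul, hη, inv_mul_cancel₀ hn0, map_one]
      have h9 : c = η * η := by
        calc c = c * η⁻¹ * η := by rw [mul_assoc, inv_mul_cancel₀ hη0, mul_one]
          _ = η * η := by rw [hcη]
      have h10 : θ ^ ((q + 1) * 3) = 1 := by
        rw [pow_mul]
        have : (θ ^ (q + 1)) ^ 3 = (algebraMap F E η * θ ^ (q + 1)) ^ 2 := by
          rw [mul_pow, sq (algebraMap F E η), ← map_mul, ← h9, ← h3]
          ring
        rw [this, h8, one_pow]
      have h11 := hθ _ h10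
      rw [← hgs, hg2] at h11
      have h12 := Nat.dvd_of_mul_dvd_mul_left (by omega) h11
      rcases (Nat.dvd_prime Nat.prime_three).1 h12 with h13 | h13
      · omega
      · omega

end Ext

end Cfsg.Agent.H103.Tor.Singer
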