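import Cfsg.Agent.H103.Tor.Real
import Cfsg.Agent.H103.Tor.Singer
import Cfsg.Agent.H733.Tor.Hyp
import Cfsg.Agent.ClassicalGeometry.PSL2Basic

/-!
# S3235: `PSL_n(F)`, `n ≥ 3`, in cross characteristic (helper103)
-/

set_option autoImplicit false

namespace Cfsg.Agent.H103.Tor.PSLCross

open Subgroup Matrix Cfsg
open Cfsg.Agent.H103.Tor.Singer (pr gs gs_lower gs_succ)

universe w

/-- the arithmetic -/
theorem arith {p q k : ℕ} (hp : p.Prime) (hp5 : 5 ≤ p) (hq : 2 ≤ q) (hk : 2 ≤ k)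
    (h1 : gs q (k + 1) ∣ 2 * p * (q - 1)) (h2 : gs q k ∣ 2 * p) : False := by
  obtain ⟨j, rfl⟩ : ∃ j, k = j + 2 := ⟨k - 2, by omega⟩
  have h3 : q + 1 ≤ gs q (j + 2) := by
    unfold gs
    rw [Finset.sum_range_succ', Finset.sum_range_succ']
    simp
  have h4 : p ∣ gs q (j + 2) := by
    by_contra hc
    have h5 : (gs q (j + 2)).Coprime p := by
      rw [Nat.coprime_comm]; exact (Nat.Prime.coprime_iff_not_dvd hp).2 hc
    have := Nat.le_of_dvd (by norm_num) (h5.dvd_of_dvd_mul_right h2)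
    omega
  have h5 : ¬ p ∣ gs q (j + 2 + 1) := by
    rw [gs_succ]
    intro h
    have := (Nat.dvd_add_right (h4.mul_left q)).1 h
    exact hp.one_lt.ne' (Nat.dvd_one.1 this)
  have h6 : (gs q (j + 2 + 1)).Coprime p := by
    rw [Nat.coprime_comm]; exact (Nat.Prime.coprime_iff_not_dvd hp).2 h5
  have h7 : gs q (j + 2 + 1) ∣ p * (2 * (q - 1)) := by
    rw [show p * (2 * (q - 1)) = 2 * p * (q - 1) by ring]; exact h1
  have h8 := Nat.le_of_dvd (by omega) (h6.dvd_of_dvd_mul_left h7)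
  have h9 : q ^ (j + 2) + q + 1 ≤ gs q (j + 2 + 1) := gs_lower (q := q) j
  have h10 : q * q ≤ q ^ (j + 2) := by
    rw [← sq]; exact Nat.pow_le_pow_right (by omega) (by omega)
  have h11 : 2 * q ≤ q * q := Nat.mul_le_mul_right q hq
  omega

section

variable {p : ℕ} (hp : p.Prime) (hp5 : 5 ≤ p) {K : Type w} [Group K] [Finite K] [IsSimpleGroup K]

include hp hp5

/-- the semisimple elements of `PSL_n(F)` -/
theorem step {F : Type} [Field F] [Fintype F] {n : ℕ} (hn : 3 ≤ n) (hpF : (p : F) ≠ 0)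
    (e : K ≃* ProjectiveSpecialLinearGroup (Fin n) F) {A : Subgroup K} (h : Pr p A) {Z : SpecialLinearGroup (Fin n) F}
    {k : ℕ} (hk : 1 ≤ k) (hZ : Z ^ (Fintype.card F ^ k - 1) = 1) :
    pr Z ^ (2 * p) = 1 ∨ ((∃ t : ProjectiveSpecialLinearGroup (Fin n) F, t * pr Z * t⁻¹ = (pr Z)⁻¹) ∧
      ∃ m : ℕ, 1 ≤ m ∧ p ^ m ∣ Nat.card K ∧ (pr Z ^ (p ^ m - 1) = 1 ∨ pr Z ^ (p ^ m + 1) = 1)) := by
  obtain ⟨r, hr⟩ := CharP.exists F
  have hr' : r.Prime := CharP.char_is_prime F r
  have hrp : r ≠ p := by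
    rintro rfl
    exact hpF (CharP.cast_eq_zero F r)
  have hK : Cfsg.Agent.H733.Tor.LieHyp r K :=
    Cfsg.Agent.H733.Tor.lieHyp hr' (Or.inl ⟨F, inferInstance, inferInstance, hr, n, by omega, by omega, ⟨e⟩⟩)
  obtain ⟨z, hz⟩ := e.surjective (pr Z)
  have h1 : z ^ (Fintype.card F ^ k - 1) = 1 := by
    apply e.injective
    rw [map_pow, hz, map_one, ← map_pow, hZ, map_one]
  have hrq : r ∣ Fintype.card F ^ k := by
    obtain ⟨a, -, ha⟩ := FiniteField.card F r
    rw [ha, ← pow_mul]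
    exact dvd_pow_self r (by have := a.2; positivity)
  have h2 : ¬ r ∣ orderOf z := by
    intro h3
    have h4 := h3.trans (orderOf_dvd_of_pow_eq_one h1)
    have h5 : 1 ≤ Fintype.card F ^ k := Nat.one_le_pow _ _ (Fintype.card_pos)
    have h6 := (Nat.dvd_sub_iff_right h5 hrq).1 h4
    exact hr'.one_lt.ne' (Nat.dvd_one.1 h6)
  rcases real_of_hyp hp hp5 hr' hrp hK h h2 with h3 | ⟨⟨t, ht⟩, m, hm, h3, h4⟩
  · left; rw [← hz, ← map_pow, h3, map_one]
  · right
    refine ⟨⟨e t, ?_⟩, m, hm, h3, ?_⟩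
    · rw [← hz, ← map_inv, ← map_mul, ← map_mul, ht, map_inv]
    · rcases h4 with h4 | h4
      · left; rw [← hz, ← map_pow, h4, map_one]
      · right; rw [← hz, ← map_pow, h4, map_one]

/-- **`PSL_n(F)`, `n ≥ 3`, in cross characteristic** -/
theorem psl_cross {F : Type} [Field F] [Fintype F] {n : ℕ} (hn : 3 ≤ n) (hpF : (p : F) ≠ 0)
    (e : K ≃* ProjectiveSpecialLinearGroup (Fin n) F) {A : Subgroup K} (h : Pr p A) :
    n = 3 ∧ Fintype.card F = 2 ∧ p = 7 := by
  set q := Fintype.card F with hq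
  have hq2 : 2 ≤ q := Fintype.one_lt_card
  obtain ⟨Z, hZ1, hZ2, hZ3⟩ := Singer.singer (F := F) hn
  obtain ⟨k, rfl⟩ : ∃ k, n = k + 1 := ⟨n - 1, by omega⟩
  obtain ⟨Y, hY1, hY2, hY3⟩ := Singer.singer' (F := F) (k := k) (by omega)
  rw [← hq] at hZ2 hY2 hY3
  have h1 : gs q (k + 1) ∣ 2 * p * (q - 1) := by
    rcases step hp hp5 hn hpF e h (by omega) hZ1 with h2 | ⟨h2, -⟩
    · exact hZ2 _ h2
    · exact absurd h2 hZ3
  by_cases hex : k = 2 → q ≠ 2 ∧ q ≠ 4
  · exfalso
    apply arith hp hp5 hq2 (by omega : 2 ≤ k) h1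
    rcases step hp hp5 hn hpF e h (by omega) hY1 with h2 | ⟨h2, -⟩
    · exact hY2 _ h2
    · exact absurd h2 (hY3 hex)
  · push Not at hex
    obtain ⟨rfl, hex⟩ := hex
    have hp7 : 7 ∣ 2 * p → p = 7 := by
      intro h7
      rcases (Nat.Prime.dvd_mul (by norm_num)).1 h7 with h8 | h8
      · omega
      · exact ((Nat.prime_dvd_prime_iff_eq (by norm_num) hp).1 h8).symm
    rcases Nat.lt_or_ge q 3 with h3 | h3
    · have hq' : q = 2 := by omega
      refine ⟨rfl, hq', ?_⟩
      rw [hq'] at h1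
      have hg : gs 2 (2 + 1) = 7 := by decide
      rw [hg] at h1
      exact hp7 (by simpa using h1)
    · exfalso
      have hq' : q = 4 := hex (by omega)
      rw [hq'] at h1
      have hg : gs 4 (2 + 1) = 21 := by decide
      rw [hg] at h1
      have h7 : p = 7 := by
        apply hp7
        have h8 : 7 * 3 ∣ 2 * p * 3 := by simpa using h1
        exact Nat.dvd_of_mul_dvd_mul_right (by norm_num) h8
      subst h7
      -- an element of order 5
      have hg2 : gs 4 2 = 5 := by decide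
      rw [hq', hg2] at hY2
      have hcard : ¬ 7 ^ 2 ∣ Nat.card K := by
        intro hd
        rw [Nat.card_congr e.toEquiv] at hd
        have h8 : Nat.card (ProjectiveSpecialLinearGroup (Fin (2 + 1)) F) ∣
            Nat.card (SpecialLinearGroup (Fin (2 + 1)) F) := Subgroup.card_quotient_dvd_card _
        have h9 := ClassicalGeometry.PSL2Basic.card_SL_mul (n := Fin (2 + 1)) (F := F)
        rw [Matrix.card_GL_field, ← hq, hq'] at h9
        have h10 : ∏ i : Fin (2 + 1), (4 ^ (2 + 1) - 4 ^ (i : ℕ)) = 181440 := by decide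
        rw [h10] at h9
        have h11 : Nat.card (SpecialLinearGroup (Fin (2 + 1)) F) = 60480 := by omega
        have h12 := hd.trans h8
        rw [h11] at h12
        norm_num at h12
      rcases step hp hp5 hn hpF e h (by omega) hY1 with h8 | ⟨-, m, hm, h8, h9⟩
      · have := hY2 _ h8
        norm_num at this
      · have hm1 : m = 1 := by
          by_contra hne
          exact hcard ((pow_dvd_pow 7 (by omega)).trans h8)
        subst hm1
        rcases h9 with h9 | h9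
        · have := hY2 _ h9
          norm_num at this
        · have := hY2 _ h9
          norm_num at this

end

end Cfsg.Agent.H103.Tor.PSLCross
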