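import Cfsg.Agent.H103.Tor.PSLCross
import Cfsg.Agent.H103.Tor.Iface
import Cfsg.Agent.H451.Tor.Rows
import Cfsg.Agent.S0255

/-!
# S3235: the row `PSL_n(F)`, `n ≥ 3`, in cross characteristic (helper103)
-/

set_option autoImplicit false

namespace Cfsg.Agent.H103.Tor.PSLCross

open Subgroup Matrix Cfsg

universe w

/-- **the row `PSL_n(F)`, `n ≥ 3`, in cross characteristic** -/
theorem row_pslCross {p : ℕ} (hp : p.Prime) (hp5 : 5 ≤ p) (K : Type w) [Group K] [Finite K] [IsSimpleGroup K]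
    (hK : ∃ (F : Type) (_ : Field F) (_ : Fintype F) (n : ℕ), (p : F) ≠ 0 ∧ 3 ≤ n ∧
      Nonempty (K ≃* Matrix.ProjectiveSpecialLinearGroup (Fin n) F)) : Row p K := by
  obtain ⟨F, i1, i2, n, hpF, hn, ⟨e⟩⟩ := hK
  intro A hA
  obtain ⟨rfl, hF, rfl⟩ := psl_cross hp hp5 hn hpF e hA
  have : Fact (Nat.Prime 7) := ⟨hp⟩
  obtain ⟨f⟩ := Cfsg.Agent.S0255.result (F := ZMod 7) (K := F) (ZMod.card 7) hF
  exact H451.Tor.target_psl2 ⟨ZMod 7, inferInstance, inferInstance, inferInstance, ⟨e.trans f.symm⟩⟩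

end Cfsg.Agent.H103.Tor.PSLCross
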