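import Mathlib

/-!
# S3235: the arithmetic of the row `PSL₂(F)` (helper103)
-/

set_option autoImplicit false

namespace Cfsg.Agent.H103.Tor.PSLTwo

/-- the polynomial of the traces of the elements of `A₅` -/
def PP {F : Type*} [CommRing F] (t : F) : F := t * (t ^ 2 - 1) * (t ^ 2 - 4) * (t ^ 4 - 3 * t ^ 2 + 1)

theorem PP_map {F E : Type*} [CommRing F] [CommRing E] (e : F ≃+* E) (t : F) : PP (e t) = e (PP t) := by
  simp only [PP, map_mul, map_sub, map_add, map_pow, map_one, map_ofNat]

open Polynomial in
theorem card_le {F : Type*} [Field F] [Fintype F] (c : F) (h : ∀ x : F, PP (c - x ^ 2) = 0) :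
    Fintype.card F ≤ 18 := by
  classical
  let P : F[X] := X * (X ^ 2 - C 1) * (X ^ 2 - C 4) * (X ^ 4 - C 3 * X ^ 2 + C 1)
  have hev : ∀ t : F, P.eval t = PP t := by
    intro t
    simp [P, PP]
  have hX : P.Monic := by
    have h1 : (X : F[X]).Monic := monic_X
    have h2 : (X ^ 2 - C 1 : F[X]).Monic := by monicity!
    have h3 : (X ^ 2 - C 4 : F[X]).Monic := by monicity!
    have h4 : (X ^ 4 - C 3 * X ^ 2 + C 1 : F[X]).Monic := by monicity!
    exact ((h1.mul h2).mul h3).mul h4
  have hP0 : P ≠ 0 := hX.ne_zero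
  have hdeg : P.natDegree ≤ 9 := by
    change (X * (X ^ 2 - C 1) * (X ^ 2 - C 4) * (X ^ 4 - C 3 * X ^ 2 + C 1) : F[X]).natDegree ≤ 9
    compute_degree
  have hroots : P.roots.toFinset.card ≤ 9 :=
    le_trans (Multiset.toFinset_card_le _) (le_trans (card_roots' P) hdeg)
  have h1 := Finset.card_le_mul_card_image (f := fun x : F => c - x ^ 2) (Finset.univ : Finset F) 2 ?_
  · rw [Finset.card_univ] at h1
    have h2 : (Finset.univ.image (fun x : F => c - x ^ 2)) ⊆ P.roots.toFinset := by
      intro t ht
      rw [Finset.mem_image] at ht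
      obtain ⟨x, -, rfl⟩ := ht
      rw [Multiset.mem_toFinset, mem_roots hP0, IsRoot.def, hev]
      exact h x
    have h3 := Finset.card_le_card h2
    omega
  · intro t ht
    have h4 : ({x ∈ (Finset.univ : Finset F) | c - x ^ 2 = t} : Finset F) ⊆ (nthRoots 2 (c - t)).toFinset := by
      intro x hx
      rw [Finset.mem_filter] at hx
      rw [Multiset.mem_toFinset, mem_nthRoots (by norm_num)]
      rw [← hx.2]; ring
    refine le_trans (Finset.card_le_card h4) (le_trans (Multiset.toFinset_card_le _) (card_nthRoots 2 _))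

theorem small (q : ℕ) (hq : q = 7 ∨ q = 11 ∨ q = 13 ∨ q = 17) (τ : ZMod q) (hτ : τ ^ 2 + τ - 1 = 0) :
    ∃ x : ZMod q, PP (τ ^ 2 - 2 - x ^ 2) ≠ 0 := by
  rcases hq with rfl | rfl | rfl | rfl
  · revert τ; unfold PP; decide
  · revert τ; unfold PP; decide
  · revert τ; unfold PP; decide
  · revert τ; unfold PP; decide

theorem arith {F : Type*} [Field F] [Fintype F] (h4 : 4 ≤ Fintype.card F) (h5 : (5 : F) ≠ 0) {τ : F}
    (hτ : τ ^ 2 + τ - 1 = 0) (h : ∀ x : F, PP (τ ^ 2 - 2 - x ^ 2) = 0) : Fintype.card F = 4 := by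
  classical
  obtain ⟨c, hc⟩ := CharP.exists F
  have hcp : c.Prime := CharP.char_is_prime F c
  have hcf : Fact c.Prime := ⟨hcp⟩
  obtain ⟨n, hn, hF⟩ := FiniteField.card F c
  by_cases hc2 : c = 2
  · -- characteristic two
    subst hc2
    have h20 : (2 : F) = 0 := by exact_mod_cast CharP.cast_eq_zero F 2
    have hx4 : ∀ x : F, x ^ 4 = x := by
      intro x
      have h1 := h x
      unfold PP at h1
      set t := τ ^ 2 - 2 - x ^ 2 with ht
      have h2 : t ^ 4 = t := by
        have h3 : t * (t + 1) * (t ^ 2 + t + 1) = 0 := by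
          have e1 : t ^ 2 - 1 = (t + 1) ^ 2 := by linear_combination (-t - 1) * h20
          have e2 : t ^ 2 - 4 = t ^ 2 := by linear_combination (-2) * h20
          have e3 : t ^ 4 - 3 * t ^ 2 + 1 = (t ^ 2 + t + 1) ^ 2 := by
            linear_combination (-t ^ 3 - 3 * t ^ 2 - t) * h20
          rw [e1, e2, e3] at h1
          have h4 : (t * (t + 1) * (t ^ 2 + t + 1)) ^ 2 * t = 0 := by linear_combination h1
          rcases mul_eq_zero.1 h4 with h5 | h5
          · exact pow_eq_zero_iff (two_ne_zero) |>.1 h5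
          · rw [h5]; ring
        linear_combination h3 - (t ^ 3 + t ^ 2 + t) * h20
      have hτ4 : τ ^ 4 = τ := by
        have h6 : τ ^ 2 = 1 - τ := by linear_combination hτ
        have : τ ^ 4 = (τ ^ 2) ^ 2 := by ring
        rw [this, h6]
        linear_combination h6 + (1 - 2 * τ) * h20
      have h7 : (x ^ 4 - x) ^ 2 = 0 := by
        have h8 : t = τ ^ 2 + x ^ 2 := by rw [ht]; linear_combination (-1 - x ^ 2) * h20
        rw [h8] at h2
        have h9 : (τ ^ 2 + x ^ 2) ^ 4 = τ ^ 8 + x ^ 8 := by
          linear_combination (2 * τ ^ 6 * x ^ 2 + 3 * τ ^ 4 * x ^ 4 + 2 * τ ^ 2 * x ^ 6) * h20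
        rw [h9] at h2
        have h10 : τ ^ 8 = τ ^ 2 := by
          calc τ ^ 8 = (τ ^ 4) ^ 2 := by ring
            _ = τ ^ 2 := by rw [hτ4]
        linear_combination h2 - h10 + (-x ^ 5 + x ^ 2) * h20
      exact sub_eq_zero.1 (pow_eq_zero_iff (two_ne_zero) |>.1 h7)
    -- at most four elements
    apply le_antisymm _ h4
    have h1 : (Finset.univ : Finset F).card ≤ 4 := by
      have hP : (Polynomial.X ^ 4 - Polynomial.X : Polynomial F) ≠ 0 := FiniteField.X_pow_card_sub_X_ne_zero F (by norm_num)
      have h2 : (Finset.univ : Finset F) ⊆ (Polynomial.X ^ 4 - Polynomial.X : Polynomial F).roots.toFinset := by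
        intro x _
        rw [Multiset.mem_toFinset, Polynomial.mem_roots hP]
        simp [hx4 x]
      refine le_trans (Finset.card_le_card h2) (le_trans (Multiset.toFinset_card_le _)
        (le_trans (Polynomial.card_roots' _) (le_of_eq (FiniteField.X_pow_card_sub_X_natDegree_eq F (by norm_num)))))
    rwa [Finset.card_univ] at h1
  · by_cases hc3 : c = 3
    · -- characteristic three
      exfalso
      subst hc3
      have h30 : (3 : F) = 0 := by exact_mod_cast CharP.cast_eq_zero F 3
      have h1 := h 1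
      have h6 : τ ^ 2 = 1 - τ := by linear_combination hτ
      have ht : τ ^ 2 - 2 - 1 ^ 2 = τ ^ 2 := by linear_combination -h30
      rw [ht] at h1
      unfold PP at h1
      have h7 : (τ ^ 2) ^ 2 = -1 := by rw [h6]; linear_combination h6 + (1 - τ) * h30
      have h8 : (τ ^ 2) ^ 4 = 1 := by
        have : (τ ^ 2) ^ 4 = ((τ ^ 2) ^ 2) ^ 2 := by ring
        rw [this, h7]; ring
      rw [h7, h8] at h1
      have h9 : τ ^ 2 * 50 = 0 := by linear_combination h1
      have h10 : τ ^ 2 = 0 := by
        have h11 : (50 : F) ≠ 0 := by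
          intro h12
          apply one_ne_zero (α := F)
          linear_combination -h12 + 17 * h30
        exact (mul_eq_zero.1 h9).resolve_right h11
      rw [h10] at h7
      apply one_ne_zero (α := F)
      linear_combination h7
    · exfalso
      have hc5 : c ≠ 5 := by
        rintro rfl
        apply h5
        exact_mod_cast CharP.cast_eq_zero F 5
      have hc7 : 7 ≤ c := by
        by_contra hlt
        push Not at hlt
        interval_cases c <;> first | contradiction | (revert hcp; decide) | omega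
      have h18 := card_le (τ ^ 2 - 2) h
      have hn1 : (n : ℕ) = 1 := by
        by_contra hne
        have h2 : 2 ≤ (n : ℕ) := by
          have := n.pos
          omega
        have h3 : c ^ 2 ≤ c ^ (n : ℕ) := Nat.pow_le_pow_right (by omega) h2
        rw [← hF] at h3
        nlinarith
      rw [hn1, pow_one] at hF
      have hc18 : c ≤ 18 := by rw [← hF]; exact h18
      have hcc : c = 7 ∨ c = 11 ∨ c = 13 ∨ c = 17 := by
        interval_cases c <;> first | omega | (exfalso; revert hcp; decide)
      have e : ZMod c ≃+* F := ZMod.ringEquivOfPrime F hcp hF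
      have hτ' : (e.symm τ) ^ 2 + e.symm τ - 1 = 0 := by
        rw [← map_pow, ← map_add, ← map_one e.symm, ← map_sub, hτ, map_zero]
      obtain ⟨x, hx⟩ := small c hcc (e.symm τ) hτ'
      apply hx
      have h1 := h (e x)
      apply e.injective
      rw [← PP_map, map_zero]
      rw [map_sub, map_sub, map_pow, map_pow, e.apply_symm_apply, map_ofNat]
      exact h1

end Cfsg.Agent.H103.Tor.PSLTwo
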