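import Cfsg.Agent.H103.Tor.PSLTwo
import Cfsg.Agent.H103.Tor.PSLTwoAr

/-!
# S3235: the row `PSL₂(F)` in cross characteristic, main part (helper103)

`psl2_cross` : `Pr p A`, `A ≤ PSL₂(F)`, `(p : F) ≠ 0`, `4 ≤ |F|` ⇒ `p = 5` and `|F| = 4`.
-/

set_option autoImplicit false

namespace Cfsg.Agent.H103.Tor.PSLTwo

open Subgroup Matrix
open Cfsg.Agent.H333.SLTwoLine (Ker1 tw u l d tw_range tw_apply exists_gen exists_lift exists_phi u_mul u_inv u_pow
  l_pow l_inv l_mul d_u d_l conj_u_of_col conj_l_of_col Line)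

variable {F : Type*} [Field F]

/-- the unipotent subgroup -/
def uh : Multiplicative F →* SpecialLinearGroup (Fin 2) F where
  toFun x := u (Multiplicative.toAdd x)
  map_one' := Cfsg.Agent.H333.SLTwoLine.u_zero
  map_mul' x y := (u_mul _ _).symm

theorem conj_u_of_zero {g : SpecialLinearGroup (Fin 2) F} (hg : g.1 1 0 = 0) (x : F) :
    g * u x * g⁻¹ = u (x * (g.1 0 0) ^ 2) := by
  apply Subtype.ext
  rw [conj_u_of_col]
  ext i j; fin_cases i <;> fin_cases j <;> simp [hg]

/-- Step 1: no invariant line -/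
theorem step_one [Fintype F] {p : ℕ} (hp : p.Prime) (hp5 : 5 ≤ p) (hpF : (p : F) ≠ 0)
    {A : Subgroup (ProjectiveSpecialLinearGroup (Fin 2) F)} (h : Pr p A) {g : SpecialLinearGroup (Fin 2) F}
    (hA : A = zpowers (pr g)) (hgp : g ^ p = 1) (hg1 : pr g ≠ 1) : g.1 1 0 ≠ 0 := by
  classical
  intro h0
  have hodd : Odd p := hp.odd_of_ne_two (by omega)
  set N : Subgroup (ProjectiveSpecialLinearGroup (Fin 2) F) := (uh (F := F)).range.map pr with hN
  have hn : ∀ b ∈ A, ∀ n ∈ N, b * n * b⁻¹ ∈ N := by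
    apply norm_of_gen hA
    rintro _ ⟨_, ⟨x, rfl⟩, rfl⟩
    refine ⟨u (Multiplicative.toAdd x * (g.1 0 0) ^ 2), ⟨Multiplicative.ofAdd _, rfl⟩, ?_⟩
    rw [← conj_u_of_zero h0, map_mul, map_mul, map_inv]
    rfl
  have hcard : ¬ p ∣ Nat.card N := by
    intro hd
    have h1 : Nat.card N ∣ Nat.card (uh (F := F)).range := Subgroup.card_map_dvd _ _
    have h2 : Nat.card (uh (F := F)).range ∣ Nat.card (Multiplicative F) := Subgroup.card_range_dvd _
    have h3 : p ∣ Fintype.card F := by
      have := (hd.trans h1).trans h2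
      rwa [Nat.card_eq_fintype_card, Fintype.card_multiplicative] at this
    obtain ⟨c, hc⟩ := CharP.exists F
    have hcp : c.Prime := CharP.char_is_prime F c
    have hcf : Fact c.Prime := ⟨hcp⟩
    obtain ⟨n, hn, hF⟩ := FiniteField.card F c
    rw [hF] at h3
    have h4 : p = c := (Nat.prime_dvd_prime_iff_eq hp hcp).1 (hp.dvd_of_dvd_pow h3)
    apply hpF
    rw [h4]
    exact CharP.cast_eq_zero F c
  have hc := h.centralize_of_not_dvd hp hp5 hn hcard
  have h1 : pr g * pr (u 1) = pr (u 1) * pr g := by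
    apply hc
    · rw [hA]; exact mem_zpowers _
    · exact ⟨u 1, ⟨Multiplicative.ofAdd 1, rfl⟩, rfl⟩
  have h2 : pr (g * u 1 * g⁻¹) = pr (u 1) := by
    rw [map_mul, map_mul, map_inv, h1]; group
  rw [conj_u_of_zero h0, one_mul] at h2
  have hd := det_eq g
  have h3 : (g.1 0 0) ^ 2 = 1 := by
    rcases pr_eq h2 with h3 | h3
    · exact Cfsg.Agent.H333.SLTwoLine.u_inj h3
    · have e00 := congrArg (fun m : SpecialLinearGroup (Fin 2) F => (m : Matrix (Fin 2) (Fin 2) F) 0 0) h3
      have e01 := congrArg (fun m : SpecialLinearGroup (Fin 2) F => (m : Matrix (Fin 2) (Fin 2) F) 0 1) h3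
      simp at e00 e01
      rw [e01]; exact e00.symm
  have h4 : g.1 1 1 = g.1 0 0 := by
    rw [h0] at hd
    linear_combination (-g.1 1 1) * h3 + g.1 0 0 * hd
  have h5 : (g.1 0 0 - 1) * (g.1 0 0 + 1) = 0 := by linear_combination h3
  have hu : ∀ y : F, u y ^ p = 1 → y = 0 := by
    intro y hy
    rw [u_pow, ← Cfsg.Agent.H333.SLTwoLine.u_zero] at hy
    have := Cfsg.Agent.H333.SLTwoLine.u_inj hy
    exact (mul_eq_zero.1 this).resolve_left hpF
  rcases mul_eq_zero.1 h5 with h6 | h6
  · have h7 : g = u (g.1 0 1) := by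
      apply Subtype.ext
      ext i j
      fin_cases i <;> fin_cases j
      · simpa using sub_eq_zero.1 h6
      · simp
      · simpa using h0
      · simpa using h4.trans (sub_eq_zero.1 h6)
    rw [h7] at hgp
    have h8 := hu _ hgp
    apply hg1
    rw [h7, h8, Cfsg.Agent.H333.SLTwoLine.u_zero, map_one]
  · have h9 : g.1 0 0 = -1 := eq_neg_of_add_eq_zero_left h6
    have h7 : -g = u (-g.1 0 1) := by
      apply Subtype.ext
      ext i j
      fin_cases i <;> fin_cases j
      · simp [h9]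
      · simp
      · simpa using h0
      · have := h4.trans h9
        simp [this]
    have h8 : (-g) ^ p = -1 := by rw [hodd.neg_pow, hgp]
    rw [h7] at h8
    rw [u_pow] at h8
    have e00 := congrArg (fun m : SpecialLinearGroup (Fin 2) F => (m : Matrix (Fin 2) (Fin 2) F) 0 0) h8
    have e01 := congrArg (fun m : SpecialLinearGroup (Fin 2) F => (m : Matrix (Fin 2) (Fin 2) F) 0 1) h8
    simp at e00 e01
    have h10 : g.1 0 1 = 0 := e01.resolve_left hpF
    apply hg1
    rw [pr_eq_one]
    right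
    have h11 : -g = 1 := by
      rw [h7, h10, neg_zero, Cfsg.Agent.H333.SLTwoLine.u_zero]
    rw [← h11, neg_neg]

/-- Step 2: `p = 5` and `τ² + τ = 1` -/
theorem step_two {p : ℕ} (hp : p.Prime) (hp5 : 5 ≤ p) (hpF : (p : F) ≠ 0)
    {g T : SpecialLinearGroup (Fin 2) F} (hgp : g ^ p = 1) (hg1 : g ≠ 1)
    (hT : pr T * pr g * (pr T)⁻¹ = pr g ^ 4) :
    p = 5 ∧ (g.1 0 0 + g.1 1 1) ^ 2 + (g.1 0 0 + g.1 1 1) - 1 = 0 := by
  classical
  have hodd : Odd p := hp.odd_of_ne_two (by omega)
  have hpf := Fact.mk hp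
  have h1 : T * g * T⁻¹ = g ^ 4 := by
    apply eq_of_pr hodd (p := p)
    · rw [map_mul, map_mul, map_inv, hT, map_pow]
    · rw [conj_pow, hgp]; group
    · rw [← pow_mul, mul_comm, pow_mul, hgp, one_pow]
  have ho : orderOf g = p := orderOf_eq_prime hgp hg1
  set t := g.1 0 0 + g.1 1 1 with ht
  have hch := ch_two g
  rw [← ht] at hch
  have e4 := pow_four hch
  have htr : t = t ^ 4 - 4 * t ^ 2 + 2 := by
    have h2 := trace_conj_SL T g
    rw [h1] at h2
    have h3 : ∀ i j, (g ^ 4).1 i j = ((g : Matrix (Fin 2) (Fin 2) F) ^ 4) i j := by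
      intro i j
      have : ((g ^ 4 : SpecialLinearGroup (Fin 2) F) : Matrix (Fin 2) (Fin 2) F) = (g : Matrix (Fin 2) (Fin 2) F) ^ 4 :=
        Matrix.SpecialLinearGroup.coe_pow g 4
      rw [← this]
    rw [h3, h3, e4] at h2
    simp only [Matrix.sub_apply, Matrix.smul_apply, smul_eq_mul, Matrix.one_apply_eq] at h2
    rw [← ht] at h2
    linear_combination -h2 - (t ^ 3 - 2 * t) * ht
  have hfac : (t - 2) * ((t + 1) * (t ^ 2 + t - 1)) = 0 := by linear_combination -htr
  have hcoe : ∀ n : ℕ, (g : Matrix (Fin 2) (Fin 2) F) ^ n = 1 → g ^ n = 1 := by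
    intro n hn
    apply Subtype.ext
    rw [Matrix.SpecialLinearGroup.coe_pow, hn]; rfl
  rcases mul_eq_zero.1 hfac with h2 | h2
  · -- `t = 2` : unipotent
    exfalso
    have ht2 : t = 2 := sub_eq_zero.1 h2
    set Y := (g : Matrix (Fin 2) (Fin 2) F) with hY
    have h3 : ∀ n : ℕ, Y ^ n = 1 + (n : F) • (Y - 1) := by
      intro n
      induction n with
      | zero => simp
      | succ n ih =>
        rw [pow_succ, ih, add_mul, one_mul, smul_mul_assoc, sub_mul, hch, one_mul, ht2, Nat.cast_succ]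
        module
    have h4 : Y ^ p = 1 := by
      rw [hY, ← Matrix.SpecialLinearGroup.coe_pow, hgp]; rfl
    rw [h3] at h4
    have h5 : (p : F) • (Y - 1) = 0 := by
      have : (1 : Matrix (Fin 2) (Fin 2) F) + (p : F) • (Y - 1) = 1 + 0 := by rw [h4, add_zero]
      exact add_left_cancel this
    have h6 : Y - 1 = 0 := (smul_eq_zero.1 h5).resolve_left hpF
    apply hg1
    apply Subtype.ext
    exact sub_eq_zero.1 h6
  · rcases mul_eq_zero.1 h2 with h3 | h3
    · -- `g ^ 3 = 1`
      exfalso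
      have ht1 : t = -1 := eq_neg_of_add_eq_zero_left h3
      have e3 := pow_three hch
      have h4 : g ^ 3 = 1 := by
        apply hcoe
        rw [e3, ht1]; simp
      have h5 := orderOf_dvd_of_pow_eq_one h4
      rw [ho] at h5
      have := Nat.le_of_dvd (by norm_num) h5
      omega
    · refine ⟨?_, h3⟩
      have e5 := pow_five hch
      have h4 : t ^ 4 - 3 * t ^ 2 + 1 = 0 := by linear_combination (t ^ 2 - t - 1) * h3
      have h5 : t ^ 3 - 2 * t = -1 := by linear_combination (t - 1) * h3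
      have h6 : g ^ 5 = 1 := by
        apply hcoe
        rw [e5, h4, h5]; simp
      have h7 := orderOf_dvd_of_pow_eq_one h6
      rw [ho] at h7
      exact (Nat.prime_dvd_prime_iff_eq hp (by norm_num)).1 h7

/-- the trace of an element of order 5 -/
theorem trace_of_five {X : SpecialLinearGroup (Fin 2) F} (h5 : X ^ 5 = 1) (h1 : X ≠ 1) :
    (X.1 0 0 + X.1 1 1) ^ 2 + (X.1 0 0 + X.1 1 1) - 1 = 0 := by
  set s := X.1 0 0 + X.1 1 1 with hs
  have hch := ch_two X
  rw [← hs] at hch
  have e5 := pow_five hch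
  have h2 : (X : Matrix (Fin 2) (Fin 2) F) ^ 5 = 1 := by
    rw [← Matrix.SpecialLinearGroup.coe_pow, h5]; rfl
  rw [h2] at e5
  have e00 := congrFun (congrFun e5 0) 0
  have e01 := congrFun (congrFun e5 0) 1
  have e10 := congrFun (congrFun e5 1) 0
  have e11 := congrFun (congrFun e5 1) 1
  simp at e00 e01 e10 e11
  by_cases hα : s ^ 4 - 3 * s ^ 2 + 1 = 0
  · rw [hα] at e00
    have h3 : s ^ 3 - 2 * s = -1 := by linear_combination e00
    by_contra h4
    have h6 : (s ^ 2 + s - 1) * (s ^ 2 - s - 1) = 0 := by linear_combination hα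
    have h7 : (s ^ 2 + s - 1) * (s - 1) = 0 := by linear_combination h3
    have h8 := (mul_eq_zero.1 h6).resolve_left h4
    have h9 := (mul_eq_zero.1 h7).resolve_left h4
    apply one_ne_zero (α := F)
    linear_combination s * h9 - h8
  · -- `X` is scalar
    exfalso
    have x01 : X.1 0 1 = 0 := by
      rcases e01 with h | h
      · exact absurd h hα
      · exact h
    have x10 : X.1 1 0 = 0 := by
      rcases e10 with h | h
      · exact absurd h hα
      · exact h
    have x00 : X.1 0 0 = X.1 1 1 := by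
      have : (s ^ 4 - 3 * s ^ 2 + 1) * (X.1 0 0 - X.1 1 1) = 0 := by linear_combination e11 - e00
      exact sub_eq_zero.1 ((mul_eq_zero.1 this).resolve_left hα)
    have hd := det_eq X
    rw [x01, x10, ← x00] at hd
    have h3 : (X.1 0 0) ^ 2 = 1 := by linear_combination hd
    have h4 : (X.1 0 0) ^ 5 = 1 := by
      have h6 : ∀ n : ℕ, ((X : Matrix (Fin 2) (Fin 2) F) ^ n) 0 0 = (X.1 0 0) ^ n ∧
          ((X : Matrix (Fin 2) (Fin 2) F) ^ n) 0 1 = 0 := by
        intro n
        induction n with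
        | zero => simp
        | succ n ih =>
          constructor
          · rw [pow_succ, Matrix.mul_apply, Fin.sum_univ_two, ih.1, ih.2, pow_succ]; ring
          · rw [pow_succ, Matrix.mul_apply, Fin.sum_univ_two, ih.1, ih.2]
            have : (X : Matrix (Fin 2) (Fin 2) F) 0 1 = 0 := x01
            rw [this]; ring
      rw [← (h6 5).1, h2]; simp
    have h5' : X.1 0 0 = 1 := by
      have : (X.1 0 0) ^ 5 = ((X.1 0 0) ^ 2) ^ 2 * X.1 0 0 := by ring
      rw [this, h3] at h4
      linear_combination h4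
    apply h1
    apply Subtype.ext
    ext i j
    fin_cases i <;> fin_cases j
    · simpa using h5'
    · simpa using x01
    · simpa using x10
    · simpa using (x00.symm.trans h5')

/-- Step 3: `A` is the only subgroup of order 5 of its centraliser -/
theorem step_three {A : Subgroup (ProjectiveSpecialLinearGroup (Fin 2) F)} (h50 : (5 : F) ≠ 0)
    {g : SpecialLinearGroup (Fin 2) F} (hA : A = zpowers (pr g)) (hgp : g ^ 5 = 1) (hg1 : g ≠ 1)
    (hg10 : g.1 1 0 ≠ 0) : ∀ x ∈ centralizer (A : Set (ProjectiveSpecialLinearGroup (Fin 2) F)), x ^ 5 = 1 → x ∈ A := by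
  intro x hx hx5
  have hodd : Odd 5 := by decide
  obtain ⟨X, rfl, hX5⟩ := exists_lift_odd hodd hx5
  have hc : X * g = g * X := by
    have h1 : pr g * pr X = pr X * pr g := mem_centralizer_iff.1 hx _ (by rw [hA]; exact mem_zpowers _)
    have h2 : X * g * X⁻¹ = g := by
      apply eq_of_pr hodd (p := 5)
      · rw [map_mul, map_mul, map_inv, ← h1]; group
      · rw [conj_pow, hgp]; group
      · exact hgp
    calc X * g = (X * g * X⁻¹) * X := by group
      _ = g * X := by rw [h2]
  by_cases hX1 : X = 1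
  · rw [hX1, map_one]; exact one_mem _
  have hτ := trace_of_five hgp hg1
  have hs := trace_of_five hX5 hX1
  set τ := g.1 0 0 + g.1 1 1 with hτd
  set s := X.1 0 0 + X.1 1 1 with hsd
  have h1 : (s - τ) * (s + τ + 1) = 0 := by linear_combination hs - hτ
  rcases mul_eq_zero.1 h1 with h2 | h2
  · rcases comm_lemma h50 hg10 hc (sub_eq_zero.1 h2) hτ with h3 | h3
    · rw [h3, hA]; exact mem_zpowers _
    · rw [h3, hA, map_inv]; exact inv_mem (mem_zpowers _)
  · -- compare with `g²`
    have hch := ch_two g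
    rw [← hτd] at hch
    have hcoe : ∀ i j, (g ^ 2).1 i j = τ * g.1 i j - (1 : Matrix (Fin 2) (Fin 2) F) i j := by
      intro i j
      have : ((g ^ 2 : SpecialLinearGroup (Fin 2) F) : Matrix (Fin 2) (Fin 2) F) =
          (g : Matrix (Fin 2) (Fin 2) F) * g := by
        rw [Matrix.SpecialLinearGroup.coe_pow, sq]
      have h3 : (g ^ 2).1 i j = ((g : Matrix (Fin 2) (Fin 2) F) * g) i j := by rw [← this]
      rw [h3, hch]
      simp
    have hτ0 : τ ≠ 0 := by
      intro h; rw [h] at hτ; apply one_ne_zero (α := F); linear_combination -hτ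
    have htr2 : (g ^ 2).1 0 0 + (g ^ 2).1 1 1 = -1 - τ := by
      rw [hcoe, hcoe]; simp only [Matrix.one_apply_eq]
      linear_combination hτ - τ * hτd
    have h10 : (g ^ 2).1 1 0 ≠ 0 := by
      rw [hcoe]; simp [hτ0, hg10]
    have hc2 : X * g ^ 2 = g ^ 2 * X := (show Commute X g from hc).pow_right 2
    rcases comm_lemma h50 h10 hc2 (by rw [htr2]; linear_combination h2) (by rw [htr2]; linear_combination hτ) with h3 | h3
    · rw [h3, hA, map_pow]; exact pow_mem (mem_zpowers _) 2
    · rw [h3, hA, map_inv, map_pow]; exact inv_mem (pow_mem (mem_zpowers _) 2)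

/-- Step 4: the traces -/
theorem step_four {y : SpecialLinearGroup (Fin 2) F} (h : pr y ^ 2 = 1 ∨ pr y ^ 3 = 1 ∨ pr y ^ 5 = 1) :
    PP (y.1 0 0 + y.1 1 1) = 0 := by
  set t := y.1 0 0 + y.1 1 1 with ht
  have hch := ch_two y
  rw [← ht] at hch
  -- a scalar multiple of `y` is scalar
  have key : ∀ α β : F, α • (y : Matrix (Fin 2) (Fin 2) F) = β • (1 : Matrix (Fin 2) (Fin 2) F) →
      α = 0 ∨ t ^ 2 - 4 = 0 := by
    intro α β e
    by_cases hα : α = 0
    · exact Or.inl hα
    right
    have e00 := congrFun (congrFun e 0) 0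
    have e01 := congrFun (congrFun e 0) 1
    have e10 := congrFun (congrFun e 1) 0
    have e11 := congrFun (congrFun e 1) 1
    simp at e00 e01 e10 e11
    have y01 : y.1 0 1 = 0 := e01.resolve_left hα
    have y10 : y.1 1 0 = 0 := e10.resolve_left hα
    have y00 : y.1 0 0 = y.1 1 1 := by
      have : α * (y.1 0 0 - y.1 1 1) = 0 := by linear_combination e00 - e11
      exact sub_eq_zero.1 ((mul_eq_zero.1 this).resolve_left hα)
    have hd := det_eq y
    rw [y01, y10, ← y00] at hd
    rw [ht, ← y00]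
    linear_combination 4 * hd
  have hpow : ∀ n : ℕ, pr y ^ n = 1 → (y : Matrix (Fin 2) (Fin 2) F) ^ n = (1 : F) • 1 ∨
      (y : Matrix (Fin 2) (Fin 2) F) ^ n = (-1 : F) • 1 := by
    intro n hn
    rw [← map_pow] at hn
    rcases pr_eq_one.1 hn with h | h
    · left
      rw [← Matrix.SpecialLinearGroup.coe_pow, h]; simp
    · right
      rw [← Matrix.SpecialLinearGroup.coe_pow, h]; simp
  have mv : ∀ α β γ : F, α • (y : Matrix (Fin 2) (Fin 2) F) - β • (1 : Matrix (Fin 2) (Fin 2) F) =
      γ • (1 : Matrix (Fin 2) (Fin 2) F) → α • (y : Matrix (Fin 2) (Fin 2) F) = (γ + β) • (1 : Matrix (Fin 2) (Fin 2) F) := by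
    intro α β γ e
    rw [add_smul, ← e]; abel
  unfold PP
  rcases h with h | h | h
  · have h1 : t = 0 ∨ t ^ 2 - 4 = 0 := by
      rcases hpow 2 h with h2 | h2
      · rw [sq, hch] at h2
        exact key _ _ (mv _ _ _ h2)
      · rw [sq, hch] at h2
        exact key _ _ (mv _ _ _ h2)
    rcases h1 with h1 | h1
    · rw [h1]; ring
    · rw [h1]; ring
  · have h1 : t ^ 2 - 1 = 0 ∨ t ^ 2 - 4 = 0 := by
      rcases hpow 3 h with h2 | h2
      · rw [pow_three hch] at h2
        exact key _ _ (mv _ _ _ h2)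
      · rw [pow_three hch] at h2
        exact key _ _ (mv _ _ _ h2)
    rcases h1 with h1 | h1
    · rw [h1]; ring
    · rw [h1]; ring
  · have h1 : t ^ 4 - 3 * t ^ 2 + 1 = 0 ∨ t ^ 2 - 4 = 0 := by
      rcases hpow 5 h with h2 | h2
      · rw [pow_five hch] at h2
        exact key _ _ (mv _ _ _ h2)
      · rw [pow_five hch] at h2
        exact key _ _ (mv _ _ _ h2)
    rcases h1 with h1 | h1
    · rw [h1]; ring
    · rw [h1]; ring

/-- **the row `PSL₂(F)` in cross characteristic** -/
theorem psl2_cross {F : Type*} [Field F] [Fintype F] {p : ℕ} (hp : p.Prime) (hp5 : 5 ≤ p) (hpF : (p : F) ≠ 0)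
    (hF : 4 ≤ Fintype.card F) {A : Subgroup (ProjectiveSpecialLinearGroup (Fin 2) F)} (h : Pr p A) :
    p = 5 ∧ Fintype.card F = 4 := by
  classical
  have hpf := Fact.mk hp
  have hodd : Odd p := hp.odd_of_ne_two (by omega)
  have hsimple : IsSimpleGroup (ProjectiveSpecialLinearGroup (Fin 2) F) :=
    Cfsg.Agent.TwoFusion.SLTwoFacts.isSimpleGroup_psl (by omega)
  obtain ⟨a, haA, hao, hAa⟩ := exists_gen hp A h.card
  obtain ⟨g, rfl, hgp⟩ := exists_lift_odd hodd (by rw [← hao]; exact pow_orderOf_eq_one a)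
  have hprg : pr g ≠ 1 := by
    intro h1; rw [h1, orderOf_one] at hao; exact hp.one_lt.ne hao
  have hg1 : g ≠ 1 := by rintro rfl; exact hprg (map_one _)
  have hg10 := step_one hp hp5 hpF h hAa hgp hprg
  -- the group is not abelian
  have hna : ¬ ∀ x y : ProjectiveSpecialLinearGroup (Fin 2) F, x * y = y * x := by
    intro hcomm
    have h1 := hcomm (pr (u 1)) (pr (l 1))
    have h2 : pr (u (1 : F) * l 1) = pr (l 1 * u 1) := by rw [map_mul, map_mul, h1]
    rcases pr_eq h2 with h3 | h3
    · have e := congrArg (fun m : SpecialLinearGroup (Fin 2) F => (m : Matrix (Fin 2) (Fin 2) F) 0 0) h3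
      simp [Matrix.mul_apply, Fin.sum_univ_two] at e
    · have e := congrArg (fun m : SpecialLinearGroup (Fin 2) F => (m : Matrix (Fin 2) (Fin 2) F) 0 0) h3
      have e' := congrArg (fun m : SpecialLinearGroup (Fin 2) F => (m : Matrix (Fin 2) (Fin 2) F) 0 1) h3
      simp [Matrix.mul_apply, Fin.sum_univ_two] at e e'
      apply one_ne_zero (α := F)
      linear_combination e - e'
  obtain ⟨k, hk⟩ := h.exists_noncomm_simple hp hp5 hna
  obtain ⟨t, ht⟩ := h.exists_sq hp hp5 hk 2 (fun hd => by have := Nat.le_of_dvd (by norm_num) hd; omega)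
  obtain ⟨T, rfl⟩ := pr_surj t
  obtain ⟨hp', hτ⟩ := step_two hp hp5 hpF hgp hg1 (ht (pr g) haA)
  subst hp'
  refine ⟨rfl, ?_⟩
  have h50 : (5 : F) ≠ 0 := by exact_mod_cast hpF
  have hO := step_three h50 hAa hgp hg1 hg10
  refine arith hF h50 hτ fun x => ?_
  -- the conjugate
  set hh : SpecialLinearGroup (Fin 2) F := u (x / g.1 1 0) with hhd
  set y := g * (hh * g * hh⁻¹) with hy
  have htr : y.1 0 0 + y.1 1 1 = (g.1 0 0 + g.1 1 1) ^ 2 - 2 - x ^ 2 := by
    have hd := det_eq g
    have hi : hh⁻¹ = u (-(x / g.1 1 0)) := u_inv _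
    rw [hy, hi, hhd]
    have e : (g * (u (x / g.1 1 0) * g * u (-(x / g.1 1 0)))).1 =
        (g : Matrix (Fin 2) (Fin 2) F) * (!![1, x / g.1 1 0; 0, 1] * (g : Matrix (Fin 2) (Fin 2) F) *
          !![1, -(x / g.1 1 0); 0, 1]) := rfl
    rw [e]
    simp only [Matrix.mul_apply, Fin.sum_univ_two, Matrix.of_apply, Matrix.cons_val', Matrix.cons_val_zero,
      Matrix.cons_val_one, Matrix.empty_val', Matrix.cons_val_fin_one, Fin.isValue]
    have e2 : x = (x / g.1 1 0) * g.1 1 0 := by field_simp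
    set z := x / g.1 1 0 with hz
    rw [e2]
    linear_combination -2 * hd
  rw [← htr]
  apply step_four
  have hpy : pr y = pr g * (pr hh * pr g * (pr hh)⁻¹) := by
    rw [hy, map_mul, map_mul, map_mul, map_inv]
  have hb : pr hh * pr g * (pr hh)⁻¹ ∈ cj (pr hh) A := conj_mem_cj haA
  have hga5 : pr g ^ 5 = 1 := by rw [← map_pow, hgp, map_one]
  by_cases hc : Cm A (cj (pr hh) A)
  · right; right
    rw [hpy]
    have h1 : Commute (pr g) (pr hh * pr g * (pr hh)⁻¹) := hc _ haA _ hb
    rw [h1.mul_pow, conj_pow, hga5]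
    group
  · have hl := (h.exists_pair hp hp5 hc).line hp hp5 hO
    refine line_five hl ?_ _ ?_
    · intro z hz _
      obtain ⟨Z, rfl⟩ := pr_surj z
      have hcomm : ∀ w : SpecialLinearGroup (Fin 2) F, w ^ 5 = 1 → pr Z * pr w = pr w * pr Z → Z * w = w * Z := by
        intro w hw e
        have h2 : Z * w * Z⁻¹ = w := by
          apply eq_of_pr hodd (p := 5)
          · rw [map_mul, map_mul, map_inv, e]; group
          · rw [conj_pow, hw]; group
          · exact hw
        calc Z * w = (Z * w * Z⁻¹) * Z := by group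
          _ = w * Z := by rw [h2]
      have h1 := hcomm g hgp (hz _ (mem_sup_left haA))
      have h2 : Z * (hh * g * hh⁻¹) = (hh * g * hh⁻¹) * Z := by
        apply hcomm
        · rw [conj_pow, hgp]; group
        · rw [map_mul, map_mul, map_inv]
          exact hz _ (mem_sup_right hb)
      rw [pr_eq_one]
      by_contra hne
      push Not at hne
      have h3 := comm_trans hne h1 h2
      apply hc
      intro a ha b hb'
      rw [hAa] at ha
      obtain ⟨i, rfl⟩ := ha
      obtain ⟨a', ha', rfl⟩ := hb'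
      rw [hAa] at ha'
      obtain ⟨j, rfl⟩ := ha'
      have h4 : Commute (pr g) (pr hh * pr g * (pr hh)⁻¹) := by
        have := congrArg pr h3
        simp only [map_mul, map_inv] at this
        exact this
      have h5 := h4.zpow_zpow i j
      rw [conj_zpow] at h5
      exact h5
    · rw [hpy]
      exact mul_mem (mem_sup_left haA) (mem_sup_right hb)

end Cfsg.Agent.H103.Tor.PSLTwo
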