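import Cfsg.Agent.H103.Tor.PSLTwoMain
import Cfsg.Agent.H103.Tor.Iface
import Cfsg.Agent.H451.Tor.Rows
import Cfsg.Agent.S0494

/-!
# S3235: the row `PSL₂(F)` (helper103)
-/

set_option autoImplicit false

namespace Cfsg.Agent.H103.Tor.PSLTwo

open Subgroup Matrix Cfsg

universe w

theorem psl_iso_five {F K : Type} [Field F] [Fintype F] [Field K] [Fintype K] (hF : Fintype.card F = 4)
    (hK : Fintype.card K = 5) :
    Nonempty (ProjectiveSpecialLinearGroup (Fin 2) F ≃* ProjectiveSpecialLinearGroup (Fin 2) K) := by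
  have h1 : Nat.card (ProjectiveSpecialLinearGroup (Fin 2) F) = 60 := by
    rw [ClassicalGeometry.PSL2Basic.card_PSL2_even F (by rw [hF]; decide), hF]; norm_num
  have h2 : IsSimpleGroup (ProjectiveSpecialLinearGroup (Fin 2) F) :=
    TwoFusion.SLTwoFacts.isSimpleGroup_psl (by rw [hF]; norm_num)
  have h3 : Nat.card (ProjectiveSpecialLinearGroup (Fin 2) K) = 60 := by
    have := ClassicalGeometry.PSL2Basic.card_PSL2_odd K (by rw [hK]; decide)
    rw [hK] at this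
    omega
  have h4 : IsSimpleGroup (ProjectiveSpecialLinearGroup (Fin 2) K) :=
    TwoFusion.SLTwoFacts.isSimpleGroup_psl (by rw [hK]; norm_num)
  obtain ⟨e1⟩ := S0494.result h1
  obtain ⟨e2⟩ := S0494.result h3
  exact ⟨e1.trans e2.symm⟩

/-- **the row `PSL₂(F)`** -/
theorem row_psl2 {p : ℕ} (hp : p.Prime) (hp5 : 5 ≤ p) (K : Type w) [Group K] [Finite K] [IsSimpleGroup K]
    (hK : ∃ (F : Type) (_ : Field F) (_ : Fintype F), 4 ≤ Fintype.card F ∧
      Nonempty (K ≃* Matrix.ProjectiveSpecialLinearGroup (Fin 2) F)) : Row p K := by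
  obtain ⟨F, i1, i2, hF, ⟨e⟩⟩ := hK
  intro A hA
  by_cases hpF : (p : F) = 0
  · exact H451.Tor.target_psl2 ⟨F, i1, i2, charP_of_cast hp F hpF, ⟨e⟩⟩
  · obtain ⟨rfl, h4⟩ := psl2_cross hp hp5 hpF hF (hA.map_equiv e)
    have : Fact (Nat.Prime 5) := ⟨hp⟩
    obtain ⟨f⟩ := psl_iso_five (K := ZMod 5) h4 (ZMod.card 5)
    exact H451.Tor.target_psl2 ⟨ZMod 5, inferInstance, inferInstance, inferInstance, ⟨e.trans f⟩⟩

end Cfsg.Agent.H103.Tor.PSLTwo
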