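import Cfsg.Agent.H103.Tor.Basic
import Cfsg.Agent.H103.Tor.Count
import Cfsg.Agent.H733.Tor.Main

/-!
# S3235: products of two elements of conjugates of `A` are real (helper103)

`p ≥ 5` prime.
* `sl_real` : an element `Z` of `SL₂(K)`, `K` finite of characteristic `p`: `Z ^ (2 p) = 1` or `Z` is conjugate to `Z⁻¹`;
* `real_of_pr` : the products `z` of an element of `A ^ g` and an element of `A ^ k`: `z ^ (2 p) = 1`, or `z` is conjugate to
  `z⁻¹` and `z ^ (p ^ m ± 1) = 1` for some `m ≥ 1` with `p ^ m ∣ |G|`;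
* `real_of_hyp` : in a simple group of Lie type in characteristic `r ≠ p` every element `z` of order prime to `r` has
  these properties (Gow's theorem).
-/

set_option autoImplicit false

namespace Cfsg.Agent.H103.Tor

open Subgroup Matrix
open Cfsg.Agent.H333.SLTwoLine (Ker1 u l d u_mul u_inv u_zero d_u)

section SL

variable {K : Type*} [Field K]

/-- over a finite field of odd order the form `X² - D Y²` takes all values -/
theorem exists_form [Fintype K] (hodd : Fintype.card K % 2 = 1) {D : K} (hD : D ≠ 0) (c : K) :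
    ∃ a b : K, a ^ 2 - D * b ^ 2 = c := by
  classical
  have hf : (Polynomial.X ^ 2 - Polynomial.C c : Polynomial K).degree = 2 :=
    Polynomial.degree_X_pow_sub_C (by decide) _
  have hg : (Polynomial.C (-D) * Polynomial.X ^ 2 : Polynomial K).degree = 2 := by
    rw [Polynomial.degree_C_mul_X_pow 2 (neg_ne_zero.2 hD)]; rfl
  obtain ⟨a, b, h⟩ := FiniteField.exists_root_sum_quadratic hf hg hodd
  refine ⟨a, b, ?_⟩
  simp at h
  linear_combination h

/-- **reality in `SL₂`** -/
theorem sl_real {p : ℕ} (hp : p.Prime) (hp2 : p ≠ 2) [Fintype K] [CharP K p] (Z : SpecialLinearGroup (Fin 2) K) :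
    Z ^ (2 * p) = 1 ∨ ∃ J : SpecialLinearGroup (Fin 2) K, J * Z * J⁻¹ = Z⁻¹ := by
  classical
  have hpf := Fact.mk hp
  have h2 : (2 : K) ≠ 0 := by
    intro h0
    have h1 : ((2 : ℕ) : K) = 0 := by exact_mod_cast h0
    have := (CharP.cast_eq_zero_iff K p 2).1 h1
    exact hp2 ((Nat.prime_dvd_prime_iff_eq hp Nat.prime_two).1 this)
  have hodd : Fintype.card K % 2 = 1 := by
    obtain ⟨n, -, hn⟩ := FiniteField.card K p
    rw [hn]
    exact Nat.odd_iff.1 (hp.odd_of_ne_two hp2).pow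
  have hdet : Z.1 0 0 * Z.1 1 1 - Z.1 0 1 * Z.1 1 0 = 1 := by
    have := Z.2; rwa [Matrix.det_fin_two] at this
  have hch := ch_two Z
  set a := Z.1 0 0 with ha
  set b := Z.1 0 1 with hb
  set c := Z.1 1 0 with hc
  set e := Z.1 1 1 with he
  by_cases hD : (a - e) ^ 2 + 4 * (b * c) = 0
  · left
    have h4 : (a + e) * (a + e) = 2 * 2 := by linear_combination hD + 4 * hdet
    obtain ⟨ε, hε, hε2⟩ : ∃ ε : K, a + e = 2 * ε ∧ ε ^ 2 = 1 := by
      rcases mul_self_eq_mul_self_iff.1 h4 with h | h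
      · exact ⟨1, by rw [h]; ring, by ring⟩
      · exact ⟨-1, by rw [h]; ring, by ring⟩
    rw [hε] at hch
    set M : Matrix (Fin 2) (Fin 2) K := (Z : Matrix (Fin 2) (Fin 2) K) with hM
    set N : Matrix (Fin 2) (Fin 2) K := M - ε • 1 with hN
    have hN2 : N ^ 2 = 0 := by
      rw [hN, sq, sub_mul, mul_sub, hch]
      simp only [smul_mul_assoc, mul_smul_comm, one_mul, mul_one, mul_sub, smul_smul, one_smul]
      have : ε * ε = 1 := by rw [← sq]; exact hε2
      rw [this, two_mul, add_smul, one_smul]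
      abel
    have hMN : M = N + ε • 1 := by rw [hN]; abel
    have hcomm : Commute N (ε • (1 : Matrix (Fin 2) (Fin 2) K)) := by
      unfold Commute SemiconjBy
      simp
    have hNp : N ^ p = 0 := by
      have : p = 2 + (p - 2) := by have := hp.two_le; omega
      rw [this, pow_add, hN2, zero_mul]
    have hMp : M ^ p = (ε ^ p) • (1 : Matrix (Fin 2) (Fin 2) K) := by
      rw [hMN, add_pow_char_of_commute p hcomm, hNp, zero_add, smul_pow, one_pow]
    apply Subtype.ext
    have h5 : ((Z ^ (2 * p) : SpecialLinearGroup (Fin 2) K) : Matrix (Fin 2) (Fin 2) K) = 1 := by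
      rw [Matrix.SpecialLinearGroup.coe_pow, mul_comm, pow_mul, ← hM, hMp, smul_pow, one_pow, ← pow_mul, mul_comm, pow_mul,
        hε2, one_pow, one_smul]
    exact h5
  · right
    obtain ⟨x, y, w, h1, h3⟩ : ∃ x y w : K, x * (a - e) + y * c + w * b = 0 ∧ -x ^ 2 - y * w = 1 := by
      by_cases hc0 : c = 0
      · have hae : a - e ≠ 0 := by
          intro h
          apply hD
          rw [h, hc0]; ring
        refine ⟨-b / (a - e), -1 - (-b / (a - e)) ^ 2, 1, ?_, by ring⟩
        rw [hc0]; field_simp; ring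
      · obtain ⟨X, w, hXw⟩ := exists_form hodd hD (-(4 * c ^ 2))
        have h4 : (4 : K) ≠ 0 := by
          have : (4 : K) = 2 * 2 := by norm_num
          rw [this]; exact mul_ne_zero h2 h2
        obtain ⟨x, hx⟩ : ∃ x : K, 2 * c * x = X + (a - e) * w :=
          ⟨(X + (a - e) * w) / (2 * c), by field_simp⟩
        obtain ⟨y, hy⟩ : ∃ y : K, c * y = -(x * (a - e) + w * b) := ⟨-(x * (a - e) + w * b) / c, by field_simp⟩
        refine ⟨x, y, w, by linear_combination hy, ?_⟩
        have h5 : 4 * c ^ 2 * (-x ^ 2 - y * w) = 4 * c ^ 2 * 1 := by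
          have hX : X = 2 * c * x - (a - e) * w := by rw [hx]; ring
          rw [hX] at hXw
          linear_combination (-4 * c * w) * hy - hXw
        exact mul_left_cancel₀ (mul_ne_zero h4 (pow_ne_zero 2 hc0)) h5
    have hJ : (!![x, y; w, -x] : Matrix (Fin 2) (Fin 2) K).det = 1 := by
      rw [Matrix.det_fin_two]
      simp only [Matrix.of_apply, Matrix.cons_val', Matrix.cons_val_zero, Matrix.cons_val_one, Matrix.empty_val',
        Matrix.cons_val_fin_one, Fin.isValue]
      linear_combination h3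
    obtain ⟨J, hJd⟩ : ∃ J : SpecialLinearGroup (Fin 2) K, (J : Matrix (Fin 2) (Fin 2) K) = !![x, y; w, -x] :=
      ⟨⟨_, hJ⟩, rfl⟩
    refine ⟨J, ?_⟩
    · rw [mul_inv_eq_iff_eq_mul]
      apply Subtype.ext
      have hi : ((Z⁻¹ : SpecialLinearGroup (Fin 2) K) : Matrix (Fin 2) (Fin 2) K) = !![e, -b; -c, a] := by
        rw [Matrix.SpecialLinearGroup.coe_inv, Matrix.adjugate_fin_two]
      have hz : (Z : Matrix (Fin 2) (Fin 2) K) = !![a, b; c, e] := by
        ext i j
        fin_cases i <;> fin_cases j <;> rfl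
      show (J : Matrix (Fin 2) (Fin 2) K) * (Z : Matrix (Fin 2) (Fin 2) K) = ((Z⁻¹ : SpecialLinearGroup (Fin 2) K) :
        Matrix (Fin 2) (Fin 2) K) * (J : Matrix (Fin 2) (Fin 2) K)
      rw [hi, hz, hJd]
      ext i j
      fin_cases i <;> fin_cases j <;> simp [Matrix.mul_apply, Fin.sum_univ_two]
      · linear_combination h1
      · ring
      · ring
      · linear_combination h1

end SL

variable {G : Type*} [Group G] {p : ℕ} (hp : p.Prime) (hp5 : 5 ≤ p)

include hp hp5

/-- **elements of `A ⊔ B`** -/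
theorem real_of_pair {A B : Subgroup G} (h : Pair p A B) :
    ∃ m : ℕ, 1 ≤ m ∧ p ^ m ∣ Nat.card G ∧ ∀ z ∈ A ⊔ B, z ^ (2 * p) = 1 ∨ ((∃ t : G, t * z * t⁻¹ = z⁻¹) ∧
      (z ^ (p ^ m - 1) = 1 ∨ z ^ (p ^ m + 1) = 1)) := by
  obtain ⟨K, _, _, _, m, φ, x, y, hm, hK, hφ, hX, hx, hy, hAx, hBy⟩ := h
  refine ⟨m, hm, ?_, ?_⟩
  · have h1 : Function.Injective (fun z : Multiplicative K => φ (u z.toAdd)) := by
      intro z w hzw
      exact Multiplicative.toAdd.injective (hφ.u_inj (two_ne hp hp5) hzw)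
    let f : Multiplicative K →* G :=
      { toFun := fun z => φ (u z.toAdd)
        map_one' := by
          show φ (u 0) = 1
          rw [u_zero, map_one]
        map_mul' := fun z w => by
          show φ (u (z.toAdd + w.toAdd)) = _
          rw [← u_mul, map_mul] }
    have h2 : Nat.card f.range ∣ Nat.card G := Subgroup.card_subgroup_dvd_card _
    have h3 : Nat.card f.range = p ^ m := by
      rw [← hK, ← Nat.card_eq_fintype_card, ← Nat.card_congr (MonoidHom.ofInjective (f := f) h1).toEquiv]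
      exact Nat.card_congr Multiplicative.toAdd
    rwa [h3] at h2
  · intro z hz
    rw [← hX] at hz
    obtain ⟨Z, rfl⟩ := hz
    rcases sl_real hp (by omega) Z with h1 | ⟨J, h1⟩
    · left; rw [← map_pow, h1, map_one]
    rcases Cfsg.Agent.H733.Tor.sl_order hp (by omega) Z with h2 | h2
    · left; rw [← map_pow, h2, map_one]
    right
    refine ⟨⟨φ J, by rw [← map_inv, ← map_mul, ← map_mul, h1, map_inv]⟩, ?_⟩
    rcases h2 with h2 | h2
    · left; rw [← hK, ← map_pow, h2, map_one]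
    · right; rw [← hK, ← map_pow, h2, map_one]

/-- **Products of two elements of conjugates of `A`.** -/
theorem real_of_pr {A : Subgroup G} (h : Pr p A) {g k a b : G} (ha : a ∈ A) (hb : b ∈ A) {z : G}
    (hz : z = g * a * g⁻¹ * (k * b * k⁻¹)) :
    z ^ (2 * p) = 1 ∨ ((∃ t : G, t * z * t⁻¹ = z⁻¹) ∧
      ∃ m : ℕ, 1 ≤ m ∧ p ^ m ∣ Nat.card G ∧ (z ^ (p ^ m - 1) = 1 ∨ z ^ (p ^ m + 1) = 1)) := by
  have h1 : g * a * g⁻¹ ∈ cj g A := conj_mem_cj ha
  have h2 : k * b * k⁻¹ ∈ cj k A := conj_mem_cj hb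
  by_cases hc : Cm (cj g A) (cj k A)
  · left
    have h3 : Commute (g * a * g⁻¹) (k * b * k⁻¹) := hc _ h1 _ h2
    have h4 : ∀ c ∈ A, c ^ p = 1 := by
      intro c hcA
      have := pow_card_eq_one' (x := (⟨c, hcA⟩ : A))
      rw [h.card] at this
      exact congrArg Subtype.val this
    have h5 : z ^ p = 1 := by
      rw [hz, h3.mul_pow, conj_pow, conj_pow, h4 a ha, h4 b hb]
      group
    rw [mul_comm, pow_mul, h5, one_pow]
  · obtain ⟨m, hm, h3, h4⟩ := real_of_pair hp hp5 (_root_.Cfsg.Agent.H103.Tor.exists_pair hp hp5 (h.card_cj g) (h.card_cj k)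
      ((h.pair' g k).resolve_left hc) hc)
    rcases h4 z (by rw [hz]; exact mul_mem (mem_sup_left h1) (mem_sup_right h2)) with h5 | ⟨h5, h6⟩
    · exact Or.inl h5
    · exact Or.inr ⟨h5, m, hm, h3, h6⟩

/-- **The semisimple elements of a group of Lie type in characteristic `r ≠ p`.** -/
theorem real_of_hyp {r : ℕ} (hr : r.Prime) (hrp : r ≠ p) [Finite G] [IsSimpleGroup G]
    (hK : Cfsg.Agent.H733.Tor.LieHyp r G) {A : Subgroup G} (h : Pr p A) {z : G} (hz : ¬ r ∣ orderOf z) :
    z ^ (2 * p) = 1 ∨ ((∃ t : G, t * z * t⁻¹ = z⁻¹) ∧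
      ∃ m : ℕ, 1 ≤ m ∧ p ^ m ∣ Nat.card G ∧ (z ^ (p ^ m - 1) = 1 ∨ z ^ (p ^ m + 1) = 1)) := by
  have : Fact r.Prime := ⟨hr⟩
  obtain ⟨a, ha, hao, hAa⟩ := Cfsg.Agent.H333.SLTwoLine.exists_gen hp A h.card
  have hx := Cfsg.Agent.H733.Tor.not_dvd_centralizer hp hp5 hrp hK.loc h ha hAa
  by_cases hz1 : z = 1
  · left; rw [hz1, one_pow]
  · obtain ⟨g, k, hgk⟩ := hK.gow hx hz1 hz
    exact real_of_pr hp hp5 h ha ha hgk.symm

end Cfsg.Agent.H103.Tor
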