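import Cfsg.Agent.H103.Tor.Iface
import Cfsg.Agent.H459.Reduce

/-!
# S3235: reduction to simple groups (helper103)

`reduction` : a finite group without solvable normal subgroups generated by the conjugates of `A`, `Pr p A`, is a
non-abelian simple group.
-/

set_option autoImplicit false
set_option linter.unusedSectionVars false

namespace Cfsg.Agent.H103.Tor

open Subgroup Cfsg
open Cfsg.Agent.H459.Reduce (exists_component component_center component_simple mem_normalizer_of_cj
  comm_of_cj_ne)
open Cfsg.Agent.SignalizersComponents.Components Cfsg.Agent.SignalizersComponents.ComponentExists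

universe w

variable {G : Type w} [Group G] [Finite G]

theorem cj_eq_cj (g : G) (L : Subgroup G) : Cfsg.Agent.H459.Reduce.cj g L = cj g L := rfl

theorem reduction {p : ℕ} (hp : p.Prime) (hp5 : 5 ≤ p)
    (hS : ∀ M : Subgroup G, M.Normal → Group.IsSolvable ↥M → M = ⊥) {A : Subgroup G} (h : Pr p A)
    (hgen : (⨆ g : G, cj g A) = ⊤) : IsSimpleGroup G ∧ ¬ ∀ x y : G, x * y = y * x := by
  classical
  have hpf := Fact.mk hp
  have hR : solvableRadical G = ⊥ := hS _ (Cfsg.Agent.H459.Rad.rad_normal G) (Cfsg.Agent.H459.Rad.rad_solvable G)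
  obtain ⟨a, haA, hao, hAa⟩ := Cfsg.Agent.H333.SLTwoLine.exists_gen hp A h.card
  have ha1 : a ≠ 1 := by
    rintro rfl
    rw [orderOf_one] at hao
    exact hp.one_lt.ne hao
  obtain ⟨L, hL, l0, hl0, hne0⟩ := exists_component hR ha1
  have hsimp := component_simple hR hL
  have hcen := component_center hR hL
  have hns : ¬ Group.IsSolvable L := quasisimple_not_isSolvable hL.2
  -- `A` normalises `L`
  have hAN : A ≤ normalizer (L : Set G) := by
    by_contra hAN
    -- any nontrivial element of `A` moves `L`
    have hmov : ∀ b ∈ A, b ≠ 1 → cj b L ≠ L := by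
      intro b hb hb1 hbL
      apply hAN
      have h1 : b ∈ normalizer (L : Set G) := mem_normalizer_of_cj hbL
      have h2 : A = zpowers b := by
        symm
        apply Subgroup.eq_of_le_of_card_ge
        · rw [zpowers_le]; exact hb
        · rw [h.card, Nat.card_zpowers]
          have h3 : orderOf b ∣ p := by
            rw [← h.card, ← Subgroup.orderOf_mk b hb]
            exact orderOf_dvd_natCard _
          rcases (Nat.dvd_prime hp).1 h3 with h4 | h4
          · exact absurd (orderOf_eq_one_iff.1 h4) hb1
          · exact h4.ge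
      rw [h2, zpowers_le]
      exact h1
    -- a prime `r ≠ p` dividing `|L|`
    obtain ⟨r, hr, hrp, hrL⟩ : ∃ r : ℕ, r.Prime ∧ r ≠ p ∧ r ∣ Nat.card L := by
      by_contra hcon
      push Not at hcon
      apply hns
      have h1 : IsPGroup p L := by
        apply IsPGroup.of_card (n := (Nat.card L).primeFactorsList.length)
        apply Nat.eq_prime_pow_of_unique_prime_dvd Nat.card_pos.ne'
        intro d hd hdL
        by_contra hne
        exact hcon d hd hne hdL
      have := h1.isNilpotent
      infer_instance
    have hrf := Fact.mk hr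
    obtain ⟨l, hlo⟩ := exists_prime_orderOf_dvd_card' r hrL
    set Z : Subgroup G := zpowers (l : G) with hZ
    have hlo' : orderOf (l : G) = r := by rw [Subgroup.orderOf_coe]; exact hlo
    have hZr : Nat.card Z = r := by rw [hZ, Nat.card_zpowers, hlo']
    have hZL : Z ≤ L := by rw [hZ, zpowers_le]; exact l.2
    have hc : ∀ b ∈ A, Cm Z (cj b Z) := by
      intro b hb
      by_cases hb1 : b = 1
      · rw [hb1, cj_one]
        exact Cm.self hr hZr
      · intro x hx y hy
        have h1 : y ∈ cj b L := cj_mono b hZL hy
        exact (comm_of_cj_ne hL (hmov b hb hb1) h1 (hZL hx)).symm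
    have hN1 : IsPGroup r (ncl Z A) := ncl_pGroup hZr hc
    have hN2 : ¬ p ∣ Nat.card (ncl Z A) := by
      obtain ⟨n, hn⟩ := IsPGroup.iff_card.1 hN1
      rw [hn]
      intro hd
      exact hrp ((Nat.prime_dvd_prime_iff_eq hp hr).1 (hp.dvd_of_dvd_pow hd)).symm
    have hN3 := h.centralize_of_not_dvd hp hp5 (N := ncl Z A) (fun b hb n hn => conj_mem_ncl hb hn) hN2
    have h1 : a * (l : G) = l * a := hN3 a haA _ (le_ncl Z A (mem_zpowers _))
    have h2 : (l : G) ∈ cj a L := by
      rw [mem_cj]
      have : a⁻¹ * (l : G) * a = l := by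
        rw [mul_assoc, ← h1]; group
      rw [this]; exact l.2
    have h3 : l ∈ center L := by
      rw [mem_center_iff]
      intro z
      apply Subtype.ext
      exact (comm_of_cj_ne hL (hmov a haA ha1) h2 z.2).symm
    rw [hcen, mem_bot] at h3
    rw [h3, orderOf_one] at hlo
    exact hr.one_lt.ne hlo
  -- `A ≤ L`
  have hAL : A ≤ L := by
    by_contra hAL
    have hn : ∀ b ∈ A, ∀ n ∈ L, b * n * b⁻¹ ∈ L := by
      intro b hb n hn
      exact (mem_normalizer_iff.1 (hAN hb) n).1 hn
    have h1 := h.centralize hp hp5 hn hAL ?_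
    · exact hne0 (h1 a haA l0 hl0)
    · intro P hPL hP hPn
      have h2 : (P.subgroupOf L).Normal := by
        constructor
        intro x hx g
        rw [mem_subgroupOf] at hx ⊢
        exact hPn g g.2 x hx
      rcases h2.eq_bot_or_eq_top with h3 | h3
      · rw [subgroupOf_eq_bot, disjoint_iff, inf_eq_left.2 hPL] at h3
        exact h3
      · exfalso
        apply hns
        have h4 : L ≤ P := by rwa [subgroupOf_eq_top] at h3
        have h5 : IsPGroup p L := hP.to_le h4
        have := h5.isNilpotent
        infer_instance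
  -- `L` is normal
  have hLn : L.Normal := by
    rw [← Subgroup.normalizer_eq_top_iff, eq_top_iff, ← hgen]
    apply iSup_le
    intro g
    refine le_trans (cj_mono g hAL) ?_
    by_cases hg : cj g L = L
    · rw [hg]; exact le_normalizer
    · intro y hy
      rw [mem_normalizer_iff]
      intro x
      constructor
      · intro hx
        have : y * x * y⁻¹ = x := by
          rw [comm_of_cj_ne hL hg hy hx]; group
        rwa [this]
      · intro hx
        have h1 := comm_of_cj_ne hL hg hy hx
        have h2 : x = y * x * y⁻¹ := by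
          have e : y * (y * x * y⁻¹) = (y * x * y⁻¹) * y := h1
          have e2 : y * (y * x * y⁻¹) = y * x := by rw [e]; group
          exact (mul_left_cancel e2).symm
        rw [h2]; exact hx
  have hLt : L = ⊤ := by
    rw [eq_top_iff, ← hgen]
    apply iSup_le
    intro g
    refine le_trans (cj_mono g hAL) ?_
    rintro _ ⟨x, hx, rfl⟩
    exact hLn.conj_mem x hx g
  subst hLt
  refine ⟨?_, ?_⟩
  · have e : (⊤ : Subgroup G) ≃* G := Subgroup.topEquiv
    exact (e.isSimpleGroup_congr).1 hsimp
  · intro hcomm
    apply hns
    exact Group.isSolvable_of_comm fun x y => Subtype.ext (hcomm x y)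

end Cfsg.Agent.H103.Tor
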